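import Cfsg.Agent.H36.E7MSpec
import Cfsg.Agent.H65.All

/-! E7MAX (S5934), slots SQ and CM: relations of the root elements of `E7(2)`. -/

set_option autoImplicit false

namespace H3.E7M

open Cfsg.Lie H36.E7M H63
open scoped commutatorElement

theorem stB : H64.StB chevE7 (xG chevE7 F) :=
  haveI := H65.commE7
  stB_xG H64.matOK

theorem len_one : ∀ r : Rt chevE7, len r = 1 :=
  (by decide +kernel : ∀ r : Fin 126, certE7.lenc r = 1)

theorem neg_eq : ∀ r < 126, chevE7.neg r = 125 - r := by decide +kernel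

theorem rt_eq (r : Rt chevE7) (i : Fin chevE7.rank) : rt r i = H36.E7M.co r i := by
  have := co_len r i
  rw [len_one, len_one, mul_one, mul_one] at this
  rw [← this]
  simp only [H63.co, H36.E7M.co, chevE7]

theorem sm_iff (r s t : Rt chevE7) : Sm r s t ↔ rt t = rt r + rt s :=
  ⟨fun h => funext fun i => by rw [Pi.add_apply, rt_eq, rt_eq, rt_eq]; exact h i i.2, fun h i hi => by
    have := congrFun h ⟨i, hi⟩
    rwa [Pi.add_apply, rt_eq, rt_eq, rt_eq] at this⟩

theorem form_two (r : Rt chevE7) : form (rt r) (rt r) = 2 := by rw [form_rt_self, len_one, mul_one]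

theorem form_add {r s u : Rt chevE7} (h : rt u = rt s + rt r) : form (rt s) (rt r) = -1 := by
  have := form_two u
  rw [h, form_add_left, form_add_right, form_add_right, form_two, form_two, form_symm (rt r)] at this
  omega

theorem not_add {r s u : Rt chevE7} (h : rt u = rt s + rt r) (v : Rt chevE7) :
    rt v ≠ rt u + rt r := fun e => by
  have := form_add e
  rw [h, form_add_left, form_two, form_add h] at this
  omega

theorem x_sq (r : ℕ) : x r * x r = 1 := Subtype.ext (by
  change H65.xU chevE7 F r 1 * H65.xU chevE7 F r 1 = 1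
  rw [H65.xU_add, show (1 : F) + 1 = 0 by decide, H65.xU_zero])

theorem cm_eq {Γ : Type} [Group Γ] {a b c : Γ} (ha : a * a = 1) (hb : b * b = 1)
    (e : a * b = b * a * c) : ⁅a, b⁆ = c := by
  rw [commutatorElement_def, inv_eq_of_mul_eq_one_right ha, inv_eq_of_mul_eq_one_right hb,
    mul_assoc (a * b)]
  conv_lhs => rhs; rw [e]
  rw [← mul_assoc, ← mul_assoc, mul_assoc a, hb, mul_one, ha, one_mul]

theorem braid {Γ : Type} [Group Γ] {a b : Γ} (ha : a * a = 1) (e : a * b * a * a = b * (a * b * a)) :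
    a * b * a = b * a * b := by
  rw [mul_assoc _ a a, ha, mul_one, ← mul_assoc, ← mul_assoc] at e
  rw [e, mul_assoc _ a a, ha, mul_one]

theorem x_cm {r s u : Rt chevE7} (h : rt u = rt s + rt r) : ⁅x s, x r⁆ = x u := by
  have h' := h.trans (add_comm _ _)
  have e := comm_single stB.toStN.toSt h (not_add h) (not_add h') (1 : F) 1
  have c : ((chevE7.chainM r s 1 : ℤ) : F) * (-1) * 1 = 1 := by
    rcases chainM_eq_one_or le_rfl (le_length_chainEntry (k := 1) (ne_of_add h).1 (ne_of_add h).2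
      (u := u) (by simpa using h)) (fun v e => by
        have := form_add (eq_add_of_sub_eq e.symm)
        rw [e, form_sub_left, form_two, form_add h] at this
        omega) with k | k <;> rw [k] <;> decide
  rw [c] at e
  exact cm_eq (x_sq s) (x_sq r) e

theorem jobCM : JobCM := fun r hr s hs =>
  ⟨fun t ht h => x_cm (r := ⟨s, hs⟩) (s := ⟨r, hr⟩) (u := ⟨t, ht⟩) ((sm_iff _ _ _).1 h), fun h1 h2 =>
    x_commute_of_not_add stB.toStN.toSt (r := ⟨s, hs⟩) (s := ⟨r, hr⟩) (fun e => by
      have := congrArg Fin.val e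
      rw [negR_val, neg_eq s hs] at this
      simp only at this
      omega) (fun u e => h2 u u.2 ((sm_iff ⟨r, hr⟩ ⟨s, hs⟩ u).2 e)) 1 1⟩

theorem x_ne (r : Rt chevE7) : x r ≠ 1 := fun e => one_ne_zero (stB.eq_zero_of_x_eq_one r e)

theorem jobSQ : JobSQ := by
  refine ⟨x_sq, fun r hr s hs e => ?_, fun r hr => x_ne ⟨r, hr⟩, ?_⟩
  · have h1 : x r ∈ stB.rgd.X ⟨r, hr⟩ := H64.x_mem_XR _ _ _ 1
    have h2 : x s ∈ stB.rgd.X ⟨s, hs⟩ := H64.x_mem_XR _ _ _ 1
    exact congrArg Fin.val (eq_of_mem_X stB.rgd h1 (e ▸ h2) (x_ne ⟨r, hr⟩))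
  have := (H65.sl2Rel_root (D := chevE7) (F := F) ⟨125, by decide⟩).n_x 1 1 one_ne_zero
  rw [neg_eq 125 (by omega), inv_one, one_pow, mul_one, show -(1 : F) = 1 by decide] at this
  have e : x 125 * x 0 * x 125 * x 125 = x 0 * (x 125 * x 0 * x 125) := by
    apply Subtype.ext
    simp only [Subgroup.coe_mul, x, xG_val]
    exact this
  unfold z y
  exact braid (a := x 125) (b := x 0) (x_sq 125) e

end H3.E7M
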