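/- A three-transitive group of degree thirteen with an eleven-cycle is alternating. -/
import Cfsg.Agent.H25.Jordan
import Cfsg.Agent.H25.PermFix

set_option autoImplicit false

namespace H3.TP

open Equiv Equiv.Perm MulAction Subgroup H25

variable {α : Type*} [Fintype α] [DecidableEq α]

theorem card_support_of_isCycle {g : Perm α} (hgc : g.IsCycle) {p : ℕ} (h : orderOf g = p) :
    g.support.card = p := by rw [← h, hgc.orderOf]

theorem mem_of_pow_three {X : Type*} [Group X] {S : Subgroup X} {w : X} {m : ℕ} (hm : ¬ 3 ∣ m)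
    (h3 : w ^ 3 ∈ S) (h : w ^ m ∈ S) : w ∈ S := by
  have h1 : w ^ (m % 3) ∈ S := by
    rw [← Nat.div_add_mod m 3, pow_add, pow_mul] at h
    exact (S.mul_mem_cancel_left (S.pow_mem h3 _)).1 h
  have h2 : m % 3 = 1 ∨ m % 3 = 2 := by omega
  rcases h2 with h2 | h2 <;> rw [h2] at h1
  · simpa using h1
  · rw [pow_succ] at h3
    exact (S.mul_mem_cancel_left h1).1 h3

/-- In degree thirteen, a three-transitive group of order divisible by five contains the
alternating group. -/
theorem alt_le_of_five {G : Subgroup (Perm α)} (hc : Fintype.card α = 13)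
    (hT : IsMultiplyPretransitive G α 3) (h5 : 5 ∣ Nat.card G) : alternatingGroup α ≤ G := by
  have : Fact (Nat.Prime 5) := ⟨by norm_num⟩
  have : Fact (Nat.Prime 3) := ⟨by norm_num⟩
  have hP : IsPreprimitive G α := isPreprimitive_of_multiply hT (by norm_num) (by omega)
  by_contra hno
  have key : ∀ r ∈ G, orderOf r = 5 → r.support.card = 10 := by
    intro r hr ho
    have h1 : 5 ∣ r.support.card :=
      prime_dvd_card_of_invariant (ho ▸ pow_orderOf_eq_one r) (fun x hx => apply_mem_support.2 hx)
        le_rfl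
    have h2 : r.support.card ≤ 13 := hc ▸ Finset.card_le_univ _
    by_contra h3
    have h4 : r.IsCycle := isCycle_of_prime_order (by rw [ho]; norm_num) (by omega)
    exact hno (jordan_prime_cycle hP (p := 5) (by norm_num) (by omega) h4
      (card_support_of_isCycle h4 ho) hr)
  obtain ⟨⟨r, hr⟩, ho⟩ := exists_prime_orderOf_dvd_card' 5 h5
  rw [← Subgroup.orderOf_coe] at ho
  simp only at ho
  have hrs := key r hr ho
  have hcs : (r.supportᶜ).card = 3 := by rw [Finset.card_compl, hrs, hc]
  have hS : H17.SylIn 5 (zpowers r) (G ⊓ fixSub r.supportᶜ) := by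
    have hle : zpowers r ≤ G ⊓ fixSub r.supportᶜ := by
      rw [zpowers_le]
      exact ⟨hr, mem_fixSub_compl.2 le_rfl⟩
    have hcard : Nat.card (zpowers r) = 5 := by rw [Nat.card_zpowers, ho]
    refine ⟨hle, IsPGroup.of_card (n := 1) (by rw [hcard, pow_one]), fun hd => ?_⟩
    set K := G ⊓ fixSub r.supportᶜ with hK
    have h2 : Nat.card (zpowers r) * (zpowers r).relIndex K = Nat.card K := by
      rw [← relIndex_bot_left, ← relIndex_bot_left, relIndex_mul_relIndex _ _ _ bot_le hle]
    obtain ⟨x, hx⟩ : r.support.Nonempty := Finset.card_pos.1 (by omega)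
    have h3 := (stabilizer K x).index_mul_card
    have h4 : (stabilizer K x).index ≤ 13 := by
      rw [index_stabilizer, ← hc, ← Nat.card_eq_fintype_card, ← Set.ncard_univ]
      exact Set.ncard_le_ncard (Set.subset_univ _)
    have h6 : (stabilizer K x).index ≠ 0 := index_ne_zero_of_finite
    have h7 : 5 ∣ Nat.card (stabilizer K x) := by
      obtain ⟨k, hk⟩ := hd
      rw [hcard, hk, ← h3] at h2
      by_contra h8
      have h9 : Nat.Coprime 25 (Nat.card (stabilizer K x)) :=
        Nat.Coprime.pow_left 2 ((Nat.Prime.coprime_iff_not_dvd (by norm_num)).2 h8)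
      have h10 : 25 ∣ (stabilizer K x).index := h9.dvd_of_dvd_mul_right ⟨k, by omega⟩
      omega
    obtain ⟨⟨⟨r', hr'⟩, hr2⟩, ho'⟩ := exists_prime_orderOf_dvd_card' 5 h7
    rw [← Subgroup.orderOf_coe, ← Subgroup.orderOf_coe] at ho'
    simp only at ho'
    have h11 := key r' hr'.1 ho'
    have h12 : r'.support ⊆ r.support.erase x := by
      intro y hy
      refine Finset.mem_erase.2 ⟨?_, mem_fixSub_compl.1 hr'.2 hy⟩
      rintro rfl
      exact mem_support.1 hy hr2
    have := Finset.card_le_card h12
    rw [Finset.card_erase_of_mem hx] at this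
    omega
  obtain ⟨a, b, c, hab, hac, hbc, habc⟩ := Finset.card_eq_three.1 hcs
  have ha : a ∈ r.supportᶜ := by simp [habc]
  have hb : b ∈ r.supportᶜ := by simp [habc]
  have hc' : c ∈ r.supportᶜ := by simp [habc]
  have key2 : ∀ u ∈ r.supportᶜ, ∀ v ∈ r.supportᶜ, ∃ n ∈ G,
      n ∈ normalizer (zpowers r : Set (Perm α)) ∧ ∀ x ∈ r.supportᶜ, n x = swap u v x := by
    intro u hu v hv
    obtain ⟨h, hh, he⟩ := exists_mem_eqOn hT (by omega) r.supportᶜ (by omega) (swap u v)
    obtain ⟨n, hn, hn', hne⟩ := exists_normalizer_eqOn hS hh (fun x hx => by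
      rw [he x hx, swap_apply_def]; split_ifs <;> assumption)
    exact ⟨n, hn, hn', fun x hx => by rw [hne x hx, he x hx]⟩
  obtain ⟨u, hu, hun, hue⟩ := key2 a ha b hb
  obtain ⟨v, hv, hvn, hve⟩ := key2 a ha c hc'
  have hcm := commute_commutator_of_mem_normalizer_zpowers hun hvn
  have hw : u * v * u⁻¹ * v⁻¹ ∈ G := G.mul_mem (G.mul_mem (G.mul_mem hu hv) (G.inv_mem hu))
    (G.inv_mem hv)
  have ua : u a = b := by rw [hue a ha, swap_apply_left]
  have ub : u b = a := by rw [hue b hb, swap_apply_right]
  have uc : u c = c := by rw [hue c hc', swap_apply_of_ne_of_ne hac.symm hbc.symm]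
  have va : v a = c := by rw [hve a ha, swap_apply_left]
  have vc : v c = a := by rw [hve c hc', swap_apply_right]
  have vb : v b = b := by rw [hve b hb, swap_apply_of_ne_of_ne hab.symm hbc]
  have ua' : u⁻¹ a = b := by rw [Perm.inv_eq_iff_eq, ub]
  have ub' : u⁻¹ b = a := by rw [Perm.inv_eq_iff_eq, ua]
  have uc' : u⁻¹ c = c := by rw [Perm.inv_eq_iff_eq, uc]
  have va' : v⁻¹ a = c := by rw [Perm.inv_eq_iff_eq, vc]
  have vb' : v⁻¹ b = b := by rw [Perm.inv_eq_iff_eq, vb]
  have vc' : v⁻¹ c = a := by rw [Perm.inv_eq_iff_eq, va]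
  set w := u * v * u⁻¹ * v⁻¹ with hwd
  have wa : w a = b := by simp only [hwd, Perm.mul_apply, va', uc', vc, ua]
  have wb : w b = c := by simp only [hwd, Perm.mul_apply, vb', ub', va, uc]
  have wc : w c = a := by simp only [hwd, Perm.mul_apply, vc', ua', vb, ub]
  clear_value w
  obtain ⟨e, m, hm, he⟩ := Nat.exists_eq_pow_mul_and_not_dvd (orderOf_pos w).ne' 3 (by norm_num)
  have ht : (w ^ m) ^ 3 ^ e = 1 := by rw [← pow_mul, mul_comm, ← he, pow_orderOf_eq_one]
  have hsub : r.supportᶜ ⊆ (w ^ m).support := by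
    intro x hx
    rw [mem_support]
    intro h
    have h1 : w ∈ stabilizer (Perm α) x := by
      refine mem_of_pow_three hm ?_ h
      rw [habc] at hx
      simp only [Finset.mem_insert, Finset.mem_singleton] at hx
      rw [mem_stabilizer_iff, Perm.smul_def]
      rcases hx with rfl | rfl | rfl <;> simp [pow_succ, wa, wb, wc]
    rw [mem_stabilizer_iff, Perm.smul_def] at h1
    rw [habc] at hx
    simp only [Finset.mem_insert, Finset.mem_singleton] at hx
    rcases hx with rfl | rfl | rfl
    · exact hab (h1.symm.trans wa)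
    · exact hbc (h1.symm.trans wb)
    · exact hac (wc.symm.trans h1)
  have h1 : 5 ∣ ((w ^ m).support ∩ r.support).card := by
    refine prime_dvd_card_of_invariant (σ := r) (ho ▸ pow_orderOf_eq_one r) (fun x hx => ?_)
      Finset.inter_subset_right
    rw [Finset.mem_inter] at hx ⊢
    refine ⟨?_, apply_mem_support.2 hx.2⟩
    rw [mem_support, ← Perm.mul_apply, (hcm.pow_left m).eq, Perm.mul_apply]
    exact fun h => mem_support.1 hx.1 (r.injective h)
  have h2 := card_compl_support_modEq ht
  rw [Finset.card_compl, hc] at h2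
  have h3 : ((w ^ m).support ∩ r.support).card + 3 = (w ^ m).support.card := by
    rw [← hcs, ← Finset.card_inter_add_card_sdiff (w ^ m).support r.support]
    congr 2
    ext x
    simp only [Finset.mem_sdiff, Finset.mem_compl]
    exact ⟨fun h => ⟨hsub (Finset.mem_compl.2 h), h⟩, fun h => h.2⟩
  have h4 : (w ^ m).support.card ≤ 13 := hc ▸ Finset.card_le_univ _
  have h6 : (w ^ m).support.card = 3 := by
    unfold Nat.ModEq at h2
    omega
  refine hno (alt_le_of_card_support_le hT (by norm_num) (by omega) (G.pow_mem hw m) ?_ h6.le)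
  intro h
  rw [h] at h6
  simp at h6

theorem conj_cases {X : Type*} [Group X] [Finite X] {g n : X} (hg : orderOf g = 11)
    (hn : n ∈ normalizer (zpowers g : Set X)) (h5 : ¬ 5 ∣ orderOf n) :
    n * g * n⁻¹ = g ∨ n * g * n⁻¹ = g⁻¹ := by
  obtain ⟨i, hi⟩ := (mem_normalizer_iff.1 hn g).1 (mem_zpowers g)
  simp only at hi
  have h1 : ∀ k : ℕ, n ^ k * g * (n ^ k)⁻¹ = g ^ (i ^ k) := by
    intro k
    induction k with
    | zero => simp
    | succ k ih =>
      calc n ^ (k + 1) * g * (n ^ (k + 1))⁻¹ = n * (n ^ k * g * (n ^ k)⁻¹) * n⁻¹ := by group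
        _ = (n * g * n⁻¹) ^ (i ^ k) := by rw [ih, conj_zpow]
        _ = g ^ (i ^ (k + 1)) := by rw [← hi, ← zpow_mul, pow_succ']
  have h2 := h1 (orderOf n)
  rw [pow_orderOf_eq_one, one_mul, inv_one, mul_one] at h2
  have h3 : (1 : ℤ) ≡ i ^ orderOf n [ZMOD (11 : ℕ)] := by
    rw [← hg, ← zpow_eq_zpow_iff_modEq, zpow_one]; exact h2
  rw [← ZMod.intCast_eq_intCast_iff] at h3
  push_cast at h3
  have h4 : ∀ u : ZMod 11, u ≠ 0 → u ^ 10 = 1 := by decide
  have h6 : ∀ u : ZMod 11, ∀ r < 10, ¬ 5 ∣ r → u ^ r = 1 → u = 1 ∨ u = -1 := by decide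
  have h7 : (i : ZMod 11) ≠ 0 := by
    intro h
    rw [h, zero_pow (orderOf_pos n).ne'] at h3
    exact absurd h3 (by decide)
  rw [pow_eq_pow_mod _ (h4 _ h7)] at h3
  rcases h6 _ _ (Nat.mod_lt _ (by norm_num)) (by omega) h3.symm with h | h
  · left
    rw [← hi]
    nth_rewrite 2 [← zpow_one g]
    rw [zpow_eq_zpow_iff_modEq, hg, ← ZMod.intCast_eq_intCast_iff]
    simpa using h
  · right
    rw [← hi, ← zpow_neg_one, zpow_eq_zpow_iff_modEq, hg, ← ZMod.intCast_eq_intCast_iff]
    simpa using h

theorem eleven_le_card {X : Type*} [Group X] [Fintype X] [DecidableEq X] {g : X}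
    (hg : g ^ 11 = 1) (A : Finset X) (hA : ∀ t ∈ A, g * t * g⁻¹ ∈ A)
    (hne : ∀ t ∈ A, g * t * g⁻¹ ≠ t) (h : A.Nonempty) : 11 ≤ A.card := by
  have : Fact (Nat.Prime 11) := ⟨by norm_num⟩
  refine Nat.le_of_dvd (Finset.card_pos.2 h) ?_
  refine prime_dvd_card_of_invariant (σ := MulAut.toPerm X (MulAut.conj g)) ?_ hA
    (fun t ht => mem_support.2 (hne t ht))
  rw [← map_pow, ← map_pow, hg, map_one, map_one]

theorem alt_le_of_eleven {G : Subgroup (Perm α)} (hc : Fintype.card α = 13)
    (hT : IsMultiplyPretransitive G α 3) {g : Perm α} (hg : g ∈ G) (ho : orderOf g = 11) :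
    alternatingGroup α ≤ G := by
  classical
  have : Fact (Nat.Prime 11) := ⟨by norm_num⟩
  have : Fact (Nat.Prime 2) := ⟨by norm_num⟩
  have : Fact (Nat.Prime 3) := ⟨by norm_num⟩
  by_cases h5 : 5 ∣ Nat.card G
  · exact alt_le_of_five hc hT h5
  by_contra hno
  have hcyc : ∀ y : Perm α, orderOf y = 11 → y.support.card = 11 := fun y hy =>
    card_support_of_isCycle (isCycle_of_prime_order' (by rw [hy]; norm_num) (by omega)) hy
  have hgc : g.IsCycle := isCycle_of_prime_order' (by rw [ho]; norm_num) (by omega)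
  have hgs := hcyc g ho
  have hcs : (g.supportᶜ).card = 2 := by rw [Finset.card_compl, hgs, hc]
  -- the centraliser
  have hcen : ∀ c ∈ G, Commute c g → c ∈ zpowers g := by
    intro c hcG hcm
    obtain ⟨i, hi⟩ := exists_zpow_eqOn_of_commute hgc hcm
    have h1 : (g ^ i)⁻¹ * c = 1 := by
      by_contra h1
      refine hno (alt_le_of_card_support_le hT (by norm_num) (by omega)
        (G.mul_mem (G.inv_mem (G.zpow_mem hg i)) hcG) h1 ?_)
      refine le_trans (Finset.card_le_card (t := g.supportᶜ) ?_) (by omega)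
      intro x hx
      rw [Finset.mem_compl]
      intro hxs
      apply mem_support.1 hx
      rw [Perm.mul_apply, hi x hxs]
      simp
    rw [inv_mul_eq_one] at h1
    exact ⟨i, h1⟩
  obtain ⟨a, b, hab, hs⟩ := Finset.card_eq_two.1 hcs
  have ha : a ∈ g.supportᶜ := by simp [hs]
  have hb : b ∈ g.supportᶜ := by simp [hs]
  have ga : g a = a := notMem_support.1 (Finset.mem_compl.1 ha)
  have gb : g b = b := notMem_support.1 (Finset.mem_compl.1 hb)
  have hzfix : ∀ c ∈ zpowers g, c a = a := by
    rintro c ⟨i, rfl⟩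
    exact zpow_apply_eq_self_of_apply_eq_self ga i
  obtain ⟨w, hw, hwn, hwa⟩ : ∃ w ∈ G, w ∈ normalizer (zpowers g : Set (Perm α)) ∧ w a = b := by
    obtain ⟨h, hh, he⟩ := exists_mem_eqOn hT (by omega) g.supportᶜ (by omega) (swap a b)
    obtain ⟨n, hn, hn', hne⟩ := exists_normalizer_eqOn (sylIn_zpowers_of_isCycle hgc hgs hg) hh
      (fun x hx => by rw [he x hx, swap_apply_def]; split_ifs <;> assumption)
    exact ⟨n, hn, hn', by rw [hne a ha, he a ha, swap_apply_left]⟩
  have hord : ∀ n ∈ G, ¬ 5 ∣ orderOf n := fun n hn h =>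
    h5 (h.trans (Subgroup.orderOf_dvd_natCard G hn))
  have hw2 : w * g * w⁻¹ = g⁻¹ := by
    rcases conj_cases ho hwn (hord w hw) with h | h
    · exact absurd ((hzfix w (hcen w hw (mul_inv_eq_iff_eq_mul.1 h))).symm.trans hwa) hab
    · exact h
  have hnor : ∀ n ∈ G, n a = a → n ∈ normalizer (zpowers g : Set (Perm α)) → Commute n g := by
    intro n hn hna hnn
    rcases conj_cases ho hnn (hord n hn) with h | h
    · exact mul_inv_eq_iff_eq_mul.1 h
    · have h1 : Commute (w * n) g := by
        rw [commute_iff_eq, ← mul_inv_eq_iff_eq_mul]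
        calc w * n * g * (w * n)⁻¹ = w * (n * g * n⁻¹) * w⁻¹ := by group
          _ = (w * g * w⁻¹)⁻¹ := by rw [h]; group
          _ = g := by rw [hw2, inv_inv]
      have h2 := hzfix _ (hcen _ (G.mul_mem hw hn) h1)
      rw [Perm.mul_apply, hna, hwa] at h2
      exact absurd h2.symm hab
  -- the stabiliser of `a`
  set H : Subgroup (Perm α) := G ⊓ stabilizer (Perm α) a with hH
  have hgH : g ∈ H := ⟨hg, ga⟩
  have hcard : Nat.card (zpowers g) = 11 := by rw [Nat.card_zpowers, ho]
  have hS : H17.SylIn 11 (zpowers g) H := by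
    have hle : zpowers g ≤ H := zpowers_le.2 hgH
    refine ⟨hle, IsPGroup.of_card (n := 1) (by rw [hcard, pow_one]), fun hd => ?_⟩
    have h2 : Nat.card (zpowers g) * (zpowers g).relIndex H = Nat.card H := by
      rw [← relIndex_bot_left, ← relIndex_bot_left, relIndex_mul_relIndex _ _ _ bot_le hle]
    have h3 := card_subgroup_dvd_card H
    rw [Nat.card_perm, Nat.card_eq_fintype_card (α := α), hc, ← h2, hcard] at h3
    have h4 := (Nat.mul_dvd_mul_left 11 hd).trans h3
    norm_num [Nat.factorial] at h4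
  have hP : normalizer ((hS.toSylow : Subgroup H) : Set H) ≤
      centralizer ((hS.toSylow : Subgroup H) : Set H) := by
    intro n hn
    rw [hS.coe_toSylow] at hn ⊢
    have h1 : (n : Perm α) ∈ normalizer (zpowers g : Set (Perm α)) := by
      have h2 := le_normalizer_map H.subtype (mem_map_of_mem H.subtype hn)
      rwa [subgroupOf_map_subtype, inf_of_le_left hS.1] at h2
    have h3 := hnor n n.2.1 n.2.2 h1
    rintro y ⟨i, hi⟩
    ext1
    simp only [coe_subtype] at hi
    rw [Subgroup.coe_mul, Subgroup.coe_mul, ← hi]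
    exact (h3.zpow_right i).eq.symm
  set M := (MonoidHom.transferSylow hS.toSylow hP).ker with hM
  have hMc := MonoidHom.ker_transferSylow_isComplement' hS.toSylow hP
  have hM11 := MonoidHom.not_dvd_card_ker_transferSylow hS.toSylow hP
  rw [← hM] at hMc hM11
  have hPc : Nat.card (hS.toSylow : Subgroup H) = 11 := by
    rw [hS.coe_toSylow, ← hcard]
    exact Nat.card_congr (subgroupOfEquivOfLe hS.1).toEquiv
  have hMi : M.index = 11 := by rw [hMc.symm.index_eq_card, hPc]
  have hMn : M.Normal := inferInstance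
  -- elements fixing `a`, `b` and a third point lie in `M`
  have hthree : ∀ y : H, y • b = b → ∀ x ∈ g.support, y • x = x → y ∈ M := by
    intro y hyb x hx hyx
    have h1 : ¬ 11 ∣ orderOf y := by
      rintro ⟨k, hk⟩
      have hk0 : k ≠ 0 := by rintro rfl; exact (orderOf_pos y).ne' hk
      have h2 : orderOf ((y : Perm α) ^ k) = 11 := by
        rw [orderOf_pow' _ hk0, Subgroup.orderOf_coe, hk, Nat.gcd_mul_left_left,
          Nat.mul_div_cancel _ (Nat.pos_of_ne_zero hk0)]
      have h3 : ((y : Perm α) ^ k).support ⊆ g.support.erase x := by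
        intro z hz
        have hz' : (y : Perm α) z ≠ z := mem_support.1 (support_pow_le _ _ hz)
        refine Finset.mem_erase.2 ⟨by rintro rfl; exact hz' hyx, ?_⟩
        by_contra h4
        have h6 := Finset.mem_compl.2 h4
        rw [hs] at h6
        simp only [Finset.mem_insert, Finset.mem_singleton] at h6
        rcases h6 with rfl | rfl
        · exact hz' y.2.2
        · exact hz' hyb
      have := Finset.card_le_card h3
      rw [Finset.card_erase_of_mem hx, hcyc _ h2] at this
      omega
    rw [← QuotientGroup.eq_one_iff, ← orderOf_eq_one_iff]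
    have h2 : orderOf (y : H ⧸ M) ∣ 11 := hMi ▸ orderOf_dvd_natCard _
    have h3 : orderOf (y : H ⧸ M) ∣ orderOf y := orderOf_map_dvd (QuotientGroup.mk' M) y
    rcases (Nat.dvd_prime (by norm_num)).1 h2 with h | h
    · exact h
    · exact absurd (h ▸ h3) h1
  have hfix : ∀ y ∈ M, y • b = b → y = 1 := by
    intro y hy hyb
    set K := stabilizer H b with hK
    have hall : ∀ x ∈ g.support, y • x = x := by
      intro x hx
      have h1 : K ⊓ stabilizer H x ≤ K ⊓ M := fun z hz => ⟨hz.1, hthree z hz.1 x hx hz.2⟩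
      have h2 := relIndex_mul_relIndex _ _ K h1 inf_le_left
      have h3 : (K ⊓ stabilizer H x).relIndex K ≤ 11 := by
        rw [inf_relIndex_left]
        have : (stabilizer H x).subgroupOf K = stabilizer K x := rfl
        rw [relIndex, this, index_stabilizer, ← hgs, ← Set.ncard_coe_finset]
        refine Set.ncard_le_ncard ?_
        rintro _ ⟨z, rfl⟩
        by_contra h4
        have h6 := Finset.mem_compl.2 h4
        rw [hs] at h6
        simp only [Finset.mem_insert, Finset.mem_singleton] at h6
        have hz1 : z • a = a := z.1.2.2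
        have hz2 : z • b = b := z.2
        rcases h6 with h6 | h6
        · rw [← hz1] at h6
          exact Finset.mem_compl.1 ha (smul_left_cancel z h6 ▸ hx)
        · rw [← hz2] at h6
          exact Finset.mem_compl.1 hb (smul_left_cancel z h6 ▸ hx)
      have h4 : 11 ∣ (K ⊓ M).relIndex K := by
        have h6 : Nat.card (K ⊓ M : Subgroup H) * (K ⊓ M).relIndex K = Nat.card K := by
          rw [← relIndex_bot_left, ← relIndex_bot_left,
            relIndex_mul_relIndex _ _ _ bot_le inf_le_left]
        have h7 : 11 ∣ Nat.card K := by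
          have := Subgroup.orderOf_dvd_natCard K (x := ⟨g, hgH⟩) gb
          rwa [← Subgroup.orderOf_coe, ho] at this
        rw [← h6] at h7
        exact ((Nat.Prime.dvd_mul (by norm_num)).1 h7).resolve_left
          fun h => hM11 (h.trans (card_dvd_of_le inf_le_right))
      have h6 : (K ⊓ stabilizer H x).relIndex K ≠ 0 := index_ne_zero_of_finite
      have h7 : (K ⊓ stabilizer H x).relIndex (K ⊓ M) = 1 := by
        obtain ⟨k, hk⟩ := h4
        rw [hk] at h2
        rw [← h2] at h3 h6
        rcases Nat.lt_trichotomy ((K ⊓ stabilizer H x).relIndex (K ⊓ M)) 1 with h | h | h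
        · rw [Nat.lt_one_iff.1 h] at h6; simp at h6
        · exact h
        · have : k ≠ 0 := by rintro rfl; simp at h6
          nlinarith [Nat.pos_of_ne_zero this]
      exact (relIndex_eq_one.1 h7 (⟨hyb, hy⟩ : y ∈ K ⊓ M)).2
    ext x
    by_cases hx : x ∈ g.support
    · exact hall x hx
    · have h6 := Finset.mem_compl.2 hx
      rw [hs] at h6
      simp only [Finset.mem_insert, Finset.mem_singleton] at h6
      rcases h6 with rfl | rfl
      · exact y.2.2
      · exact hyb
  have hM13 : Nat.card M ≤ 13 := by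
    have h1 : stabilizer M b = ⊥ := by
      rw [eq_bot_iff]
      intro y hy
      exact Subtype.ext (hfix y y.2 hy)
    rw [← index_bot, ← h1, index_stabilizer, ← hc, ← Nat.card_eq_fintype_card, ← Set.ncard_univ]
    exact Set.ncard_le_ncard (Set.subset_univ _)
  have hM12 : 12 ∣ Nat.card M := by
    have hT2 : IsMultiplyPretransitive G α 2 :=
      isMultiplyPretransitive_of_le (n := 3) (by norm_num) (by simp [hc])
    have hT1 : IsPretransitive G α := by
      rw [← is_one_pretransitive_iff]
      exact isMultiplyPretransitive_of_le (n := 3) (by norm_num) (by simp [hc])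
    have h1 := hT2.index_of_fixingSubgroup_mul (s := {a, b}) (Set.ncard_pair hab)
    rw [Nat.card_eq_fintype_card, hc] at h1
    have h2 : (fixingSubgroup G ({a, b} : Set α)).index = 156 := by
      norm_num [Nat.factorial] at h1; omega
    have h3 := (fixingSubgroup G ({a, b} : Set α)).index_dvd_card
    have h4 := (stabilizer G a).index_mul_card
    rw [index_stabilizer_of_transitive, Nat.card_eq_fintype_card (α := α), hc] at h4
    have h6 : Nat.card (stabilizer G a) = Nat.card H := by
      have : stabilizer G a = H.subgroupOf G := by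
        ext y; simp [hH, mem_subgroupOf]; rfl
      rw [this]
      exact Nat.card_congr (subgroupOfEquivOfLe inf_le_left).toEquiv
    have h7 := M.index_mul_card
    rw [h2, ← h4, h6, ← h7, hMi] at h3
    omega
  let := Fintype.ofFinite H
  have hA : ∀ p : ℕ, p.Prime → p ∣ 12 →
      11 ≤ (Finset.univ.filter fun t : H => t ∈ M ∧ orderOf t = p).card := by
    intro p hp hd
    have := Fact.mk hp
    refine eleven_le_card (g := (⟨g, hgH⟩ : H)) ?_ _ ?_ ?_ ?_
    · ext1
      simpa using ho ▸ pow_orderOf_eq_one g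
    · intro t ht
      simp only [Finset.mem_filter, Finset.mem_univ, true_and] at ht ⊢
      exact ⟨hMn.conj_mem _ ht.1 _, by
        rw [← ht.2]; exact (MulAut.conj (⟨g, hgH⟩ : H)).orderOf_eq t⟩
    · intro t ht h
      simp only [Finset.mem_filter, Finset.mem_univ, true_and] at ht
      have h1 : Commute (t : Perm α) g :=
        (congrArg Subtype.val (mul_inv_eq_iff_eq_mul.1 h)).symm
      have h2 := Subgroup.orderOf_dvd_natCard _ (hcen t t.2.1 h1)
      rw [hcard, Subgroup.orderOf_coe, ht.2] at h2
      have h3 := Nat.dvd_gcd h2 hd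
      exact hp.one_lt.ne' (Nat.dvd_one.1 h3)
    · obtain ⟨t, ht⟩ := exists_prime_orderOf_dvd_card' p (hd.trans hM12)
      exact ⟨t, by simpa using ht⟩
  have h2 := hA 2 (by norm_num) (by norm_num)
  have h3 := hA 3 (by norm_num) (by norm_num)
  have h4 : (Finset.univ.filter fun t : H => t ∈ M).card = Nat.card M := by
    rw [Nat.card_eq_fintype_card, Fintype.card_subtype]
  have h6 := Finset.card_le_card (s := (Finset.univ.filter fun t : H => t ∈ M ∧ orderOf t = 2) ∪
    (Finset.univ.filter fun t : H => t ∈ M ∧ orderOf t = 3))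
    (t := Finset.univ.filter fun t : H => t ∈ M) (by
      intro t ht
      simp only [Finset.mem_filter, Finset.mem_univ, true_and, Finset.mem_union] at ht ⊢
      exact ht.elim And.left And.left)
  rw [Finset.card_union_of_disjoint (by
    rw [Finset.disjoint_left]
    intro t ht ht'
    simp only [Finset.mem_filter, Finset.mem_univ, true_and] at ht ht'
    omega)] at h6
  omega

end H3.TP
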