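import Cfsg.Agent.H40.E82Spec

/-! Tower E82 (S5915), slot Fit: splitting off the Steinberg modules. -/

set_option autoImplicit false

namespace H3.E82

open H40.E82 Module
open scoped MatrixGroups

universe u

variable {F : Type u} [Field F] [Fintype F] {k V : Type} [Field k] [AddCommGroup V] [Module k V]
  {ι : F →+* k} {ρ : Representation k SL(2, F) V}

theorem step_ne {W W' : Submodule k V} {j : ℕ} (h : Step ι ρ W W' j) : ¬ W' ≤ W := fun e => by
  obtain ⟨-, -, -, -, z, hz, -, h2, -⟩ := h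
  have h0 : 0 ∈ sb j := by simp [sb]
  have := h2 (fun r => if r = 0 then 1 else 0) (by
    rw [Finset.sum_eq_single 0 (fun r _ hr => by simp [hr]) (fun k => absurd h0 k)]
    simpa [A] using e hz) 0 h0
  simp at this

theorem fac_all {P : Submodule k V} {Q : ℕ → Prop}
    (h : ∀ W W' j, Step ι ρ W W' j → W' ≤ P → Q j) {W : Submodule k V} {J : Multiset ℕ}
    (f : Fac ι ρ W J) : W ≤ P → ∀ j ∈ J, Q j := by
  induction f with
  | bot => simp
  | step _ s ih =>
    intro hP j hj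
    rcases Multiset.mem_cons.1 hj with rfl | hj
    exacts [h _ _ _ s hP, ih (s.2.1.trans hP) j hj]

theorem jobFit (a : JobA.{u}) (f : JobFac.{u}) (b : JobB0.{u}) : JobFit.{u} := by
  intro F _ _ k V _ _ _ _ _ ι ρ hq
  obtain ⟨-, -, -, -, -, ce, -⟩ := a ι ρ hq
  obtain ⟨-, -, b3, -⟩ := b ι ρ hq
  obtain ⟨N, hc, hN⟩ := ((E ρ).eventually_isCompl_ker_pow_range_pow.and
    (E ρ).eventually_iSup_ker_pow_eq).exists
  have cp : ∀ g v, ρ g ((E ρ ^ N) v) = (E ρ ^ N) (ρ g v) := fun g v =>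
    congrArg (fun T : End k V => T v) (Commute.pow_right (ce g) N).eq
  have mM : ∀ v, v ∈ LinearMap.ker (E ρ ^ N) ↔ ∃ n, (E ρ ^ n) v = 0 := fun v =>
    ⟨fun h => ⟨N, h⟩, fun ⟨n, h⟩ => hN ▸ Submodule.mem_iSup_of_mem n h⟩
  have iM : Inv ρ (LinearMap.ker (E ρ ^ N)) := fun g v hv => by
    rw [LinearMap.mem_ker, ← cp, LinearMap.mem_ker.1 hv, map_zero]
  have iS : Inv ρ (LinearMap.range (E ρ ^ N)) := by
    rintro g _ ⟨v, rfl⟩; exact ⟨_, (cp g v).symm⟩
  generalize LinearMap.ker (E ρ ^ N) = M at *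
  generalize LinearMap.range (E ρ ^ N) = S at *
  have dj : ∀ v ∈ M, v ∈ S → v = 0 := Submodule.disjoint_def.1 hc.disjoint
  have inj : ∀ v ∈ S, E ρ v = 0 → v = 0 := fun v hv h => dj v ((mM v).2 ⟨1, by simpa using h⟩) hv
  obtain ⟨π, p1, p2, p3⟩ : ∃ π : End k V, (∀ v, π v ∈ S) ∧ (∀ v, π v = 0 ↔ v ∈ M) ∧
      ∀ v ∈ S, π v = v := ⟨S.projection M hc.symm, Submodule.projection_apply_mem _,
    fun _ => Submodule.projection_apply_eq_zero_iff _, fun _ => Submodule.projection_apply_of_mem_left _⟩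
  have p4 : ∀ v, v - π v ∈ M := fun v => (p2 _).1 (by rw [map_sub, p3 _ (p1 v), sub_self])
  obtain ⟨J, hJ⟩ := f ι ρ hq M iM
  obtain ⟨J', hJ'⟩ := f ι ρ hq S iS
  refine ⟨M, S, π, J, J'.card, mM, iM, iS, inj, fun g => LinearMap.ext fun v => ?_, p1, p4, p2,
    fun U hU => ?_, hJ, fun h => fac_all (Q := (· ≠ _)) (fun W W' j s hP e => step_ne s
      fun v hv => ?_) hJ le_rfl _ h rfl, ?_⟩
  · have := (p2 _).2 (iM g _ (p4 v))
    rwa [map_sub, map_sub, p3 _ (iS g _ (p1 v)), sub_eq_zero] at this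
  · have e1 : M ⊓ U ⊔ S ⊓ U = U := le_antisymm (sup_le inf_le_right inf_le_right) fun v hv => by
      rw [← sub_add_cancel v (π v)]
      exact Submodule.add_mem_sup ⟨p4 v, sub_mem hv (hU v hv)⟩ ⟨p1 v, hU v hv⟩
    have e2 : M ⊓ U ⊓ (S ⊓ U) = ⊥ := (Submodule.eq_bot_iff _).2 fun v hv => dj v hv.1.1 hv.2.1
    rw [← Submodule.finrank_sup_add_finrank_inf_eq, e1, e2, finrank_bot, add_zero]
  · have h1 := (b3 W W' j s).2 e
    have h2 : ∀ n, (E ρ ^ n) v - v ∈ W := fun n => by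
      induction n with
      | zero => simp
      | succ n ih =>
        have := add_mem (h1 _ (by simpa using add_mem (s.2.1 ih) hv)) ih
        rwa [sub_add_sub_cancel, ← End.mul_apply, ← pow_succ'] at this
    obtain ⟨n, hn⟩ := (mM v).1 (hP hv)
    simpa [hn] using h2 n
  · rw [← Multiset.eq_replicate_card.2 (fac_all (Q := (· = _)) (fun W W' j s hP => by_contra fun e =>
      step_ne s ?_) hJ' le_rfl)]
    · exact hJ'
    refine (Submodule.eq_of_le_of_finrank_le s.2.1 (LinearMap.finrank_le_finrank_of_injective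
      (f := (E ρ).restrict ((b3 W W' j s).1 e)) ((injective_iff_map_eq_zero _).2 fun v hv =>
        Subtype.ext (inj v (hP v.2) (congrArg Subtype.val hv))))).ge

end H3.E82
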