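import Cfsg.Agent.H11.FBSpec
import Cfsg.Agent.H98.Sylow

/-! Slot `B0` of the tower FB (S3404): for `θ = 6`, `r = 3` the 3-subgroups of `C_X(h)` are
abelian. -/

set_option autoImplicit false

namespace H3.FBB0

open MulAction Subgroup H11.FB

universe u v

theorem k1 : ∀ q q' : Multiplicative (ZMod 3), q ≠ 1 → q' = 1 ∨ q⁻¹ * q' = 1 ∨ q * q' = 1 := by
  decide

theorem k2 : ∀ q : Multiplicative (ZMod 3), q * q * q = 1 := by decide

theorem k3 : ∀ q q' : Multiplicative (ZMod 3), q⁻¹ * q'⁻¹ * q * q' = 1 := by decide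

variable {G : Type u} [Group G] [Finite G]

theorem three {C H : Subgroup G} (hle : H ≤ C) (hn : Nm C H)
    (hc : Nat.card C = 3 * Nat.card H) :
    (∀ x ∈ C, x ∉ H → ∀ y ∈ C, y ∈ H ∨ x⁻¹ * y ∈ H ∨ x * y ∈ H) ∧ (∀ x ∈ C, x * x * x ∈ H) ∧
      ∀ x ∈ C, ∀ y ∈ C, x⁻¹ * y⁻¹ * x * y ∈ H := by
  have : (H.subgroupOf C).Normal := ⟨fun x hx g => hn g g.2 x hx⟩
  have : Fact (Nat.Prime 3) := ⟨Nat.prime_three⟩
  have h1 := card_eq_card_quotient_mul_card_subgroup (H.subgroupOf C)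
  rw [hc, Nat.card_congr (subgroupOfEquivOfLe hle).toEquiv] at h1
  have h2 : Nat.card (C ⧸ H.subgroupOf C) = 3 := (Nat.eq_of_mul_eq_mul_right Nat.card_pos h1).symm
  let e : (C ⧸ H.subgroupOf C) ≃* Multiplicative (ZMod 3) := mulEquivOfPrimeCardEq h2 (by simp)
  let φ : C →* Multiplicative (ZMod 3) := e.toMonoidHom.comp (QuotientGroup.mk' _)
  have hφ : ∀ x : C, φ x = 1 ↔ (x : G) ∈ H := fun x => by
    change e (x : C ⧸ H.subgroupOf C) = 1 ↔ _
    rw [map_eq_one_iff _ e.injective, QuotientGroup.eq_one_iff, mem_subgroupOf]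
  refine ⟨fun x hx hxH y hy => ?_, fun x hx => ?_, fun x hx y hy => ?_⟩
  · rcases k1 (φ ⟨x, hx⟩) (φ ⟨y, hy⟩) (fun h => hxH ((hφ _).1 h)) with h | h | h
    · exact .inl ((hφ _).1 h)
    · rw [← map_inv, ← map_mul] at h
      exact .inr (.inl ((hφ _).1 h))
    · rw [← map_mul] at h
      exact .inr (.inr ((hφ _).1 h))
  · have h := k2 (φ ⟨x, hx⟩)
    rw [← map_mul, ← map_mul] at h
    exact (hφ _).1 h
  · have h := k3 (φ ⟨x, hx⟩) (φ ⟨y, hy⟩)
    rw [← map_inv, ← map_inv, ← map_mul, ← map_mul, ← map_mul] at h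
    exact (hφ _).1 h

theorem abst {C H T : Subgroup G} {t0 : G} (hle : H ≤ C) (hn : Nm C H)
    (hc : Nat.card C = 3 * Nat.card H) (tH : ∀ k ∈ H, t0 * k * t0⁻¹ ∈ H)
    (tC : ∀ y ∈ C, t0 * y * t0⁻¹ ∈ C) (inv : ∀ y ∈ C, t0 * y * t0⁻¹ * y ∈ H)
    (cyc : ∀ R : Subgroup G, R ≤ H → IsPGroup 3 R → IsCyclic R) (hT : T ≤ C)
    (pT : IsPGroup 3 T) : ∀ x ∈ T, ∀ y ∈ T, x * y = y * x := by
  have : Fact (Nat.Prime 3) := ⟨Nat.prime_three⟩
  obtain ⟨k1, -, k3⟩ := three hle hn hc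
  obtain ⟨S, hS, hTS⟩ := H98.exists_isSyl_le pT hT
  obtain ⟨t, ht, n, hnC, e⟩ := hS.frattini_mem (g := t0) (mem_normalizer_fintype tC)
  have et : t = t0 * n⁻¹ := by rw [e]; group
  have tS : ∀ y ∈ S, t * y * t⁻¹ ∈ S := fun y hy => H98.conj_mem_of_mem_normalizer ht hy
  have tH' : ∀ k ∈ H, t * k * t⁻¹ ∈ H := fun k hk => by
    have := tH _ (hn _ (inv_mem hnC) k hk)
    rw [et]; convert this using 1; group
  obtain ⟨r, hr⟩ := (Subgroup.isCyclic_iff_exists_zpowers_eq_top _).1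
    (cyc (S ⊓ H) inf_le_right (hS.isPGroup.to_le inf_le_left))
  have rR : r ∈ S ⊓ H := hr ▸ mem_zpowers r
  have tR : t ∈ normalizer ((S ⊓ H : Subgroup G) : Set G) := mem_normalizer_fintype fun k hk =>
    mem_inf.2 ⟨tS k (mem_inf.1 hk).1, tH' k (mem_inf.1 hk).2⟩
  have cen : ∀ y ∈ S, Commute y r := fun y hy => by
    have h1 : t * y * t⁻¹ * y ∈ S ⊓ H := mem_inf.2 ⟨mul_mem (tS y hy) hy, by
      have a1 := inv _ (mul_mem (mul_mem (inv_mem hnC) (hS.le hy)) hnC)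
      have a2 := k3 n hnC y (hS.le hy)
      have := mul_mem a1 a2
      rw [et]; convert this using 1; group⟩
    have h2 : y * r * y⁻¹ ∈ S ⊓ H := mem_inf.2 ⟨mul_mem (mul_mem hy (mem_inf.1 rR).1) (inv_mem hy),
      hn y (hS.le hy) r (mem_inf.1 rR).2⟩
    have h3 : t⁻¹ * r * t⁻¹⁻¹ ∈ S ⊓ H := H98.conj_mem_of_mem_normalizer (inv_mem tR) rR
    rw [← hr] at h1 h2 h3
    obtain ⟨l, hl⟩ := mem_zpowers_iff.1 h1
    obtain ⟨j, hj⟩ := mem_zpowers_iff.1 h2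
    obtain ⟨i, hi⟩ := mem_zpowers_iff.1 h3
    have a1 : t * r ^ i * t⁻¹ = r := by rw [hi]; group
    have a2 : t * y * t⁻¹ * r * (t * y * t⁻¹)⁻¹ = r ^ j := by
      calc t * y * t⁻¹ * r * (t * y * t⁻¹)⁻¹ = t * (y * (t⁻¹ * r * t⁻¹⁻¹) * y⁻¹) * t⁻¹ := by group
        _ = t * ((r ^ j) ^ i) * t⁻¹ := by rw [← hi, ← conj_zpow, hj]
        _ = (t * r ^ i * t⁻¹) ^ j := by rw [conj_zpow, ← zpow_mul, ← zpow_mul, mul_comm j]
        _ = r ^ j := by rw [a1]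
    have a3 : y * y * r * (y * y)⁻¹ = r := by
      calc y * y * r * (y * y)⁻¹ = y * (y * r * y⁻¹) * y⁻¹ := by group
        _ = (r ^ j) ^ j := by rw [← hj, ← conj_zpow, ← hj]
        _ = t * y * t⁻¹ * (y * r * y⁻¹) * (t * y * t⁻¹)⁻¹ := by rw [← hj, ← conj_zpow, a2]
        _ = (t * y * t⁻¹ * y) * r * (t * y * t⁻¹ * y)⁻¹ := by group
        _ = r := by rw [← hl]; group
    have a4 : Commute (y ^ 2) r := by
      rw [pow_two]; exact mul_inv_eq_iff_eq_mul.1 a3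
    obtain ⟨k, hk⟩ := hS.isPGroup ⟨y, hy⟩
    have hk' : y ^ 3 ^ k = 1 := congrArg Subtype.val hk
    obtain ⟨m, hm⟩ : Odd (3 ^ k) := Odd.pow (by decide)
    have a5 : (y ^ 2) ^ (m + 1) = y := by
      rw [← pow_mul, show 2 * (m + 1) = 3 ^ k + 1 by omega, pow_succ, hk', one_mul]
    exact a5 ▸ a4.pow_left (m + 1)
  have cen' : ∀ y ∈ S, ∀ x ∈ S, x ∈ H → Commute y x := fun y hy x hx hxH => by
    have : x ∈ zpowers r := hr ▸ mem_inf.2 ⟨hx, hxH⟩
    obtain ⟨l, rfl⟩ := mem_zpowers_iff.1 this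
    exact (cen y hy).zpow_right l
  intro x hx y hy
  have hx := hTS hx
  have hy := hTS hy
  by_cases hxH : x ∈ H
  · exact (cen' y hy x hx hxH).symm
  rcases k1 x (hS.le hx) hxH y (hS.le hy) with h | h | h
  · exact cen' x hx y hy h
  · have := (Commute.refl x).mul_right (cen' x hx _ (mul_mem (inv_mem hx) hy) h)
    rwa [mul_inv_cancel_left] at this
  · have := (Commute.refl x).inv_right.mul_right (cen' x hx _ (mul_mem hx hy) h)
    rwa [inv_mul_cancel_left] at this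

theorem jobB0 : JobB0.{u, v} := by
  intro G Ω _ _ _ _ _ _ a b c d K H P T h cx hh h3 h6 hTX pT hTh
  have th := cx.th1 h hh (h3 ▸ Nat.prime_three)
  have hL := mem_L4.1 (cx.hy.fr.Hle hh)
  obtain ⟨ab, ac, ad, bc, bd, cd⟩ := cx.hy.ne
  have hN : ∀ g ∈ normalizer (zpowers h : Set G), ∀ ω ∈ fixedBy Ω h, g • ω ∈ fixedBy Ω h := by
    intro g hg ω hω
    obtain ⟨l, hl⟩ := mem_zpowers_iff.1
      (H98.conj_mem_of_mem_normalizer (inv_mem hg) (mem_zpowers h))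
    have : (g⁻¹ * h * g) • ω = ω := by
      rw [inv_inv] at hl
      rw [← hl]
      exact mem_stabilizer_iff.1 (zpow_mem (mem_stabilizer_iff.2 hω) l)
    exact conj_smul_iff.1 this
  have HN : ∀ k ∈ H, k ∈ normalizer (zpowers h : Set G) := fun k hk =>
    (th.nl k (cx.hy.fr.Hle hk)).2 hk
  have fixH : ∀ x ∈ H, ∀ ω ∈ fixedBy Ω h, x • ω = ω := th.fixH (by omega)
  have nH : ∀ g ∈ normalizer (zpowers h : Set G), ∀ k ∈ H, g * k * g⁻¹ ∈ H := by
    intro g hg k hk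
    have f : ∀ ω ∈ fixedBy Ω h, (g * k * g⁻¹) • ω = ω := fun ω hω => by
      rw [mul_smul, mul_smul, fixH k hk _ (hN _ (inv_mem hg) ω hω), smul_inv_smul]
    exact (th.nl _ (mem_L4.2 ⟨f a hL.1, f b hL.2.1, f c hL.2.2.1, f d hL.2.2.2⟩)).1
      (mul_mem (mul_mem hg (HN k hk)) (inv_mem hg))
  obtain ⟨t, tN, ta, tb, tc, td⟩ := th.tr a b c d b a c d ⟨ab, ac, ad, bc, bd, cd⟩
    ⟨ab.symm, bc, bd, ac, ad, cd⟩ hL.1 hL.2.1 hL.2.2.1 hL.2.2.2 hL.2.1 hL.1 hL.2.2.1 hL.2.2.2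
  have ta' : t⁻¹ • b = a := inv_smul_eq_iff.2 ta.symm
  have tb' : t⁻¹ • a = b := inv_smul_eq_iff.2 tb.symm
  have tc' : t⁻¹ • c = c := inv_smul_eq_iff.2 tc.symm
  have td' : t⁻¹ • d = d := inv_smul_eq_iff.2 td.symm
  have hle : H ≤ normalizer (zpowers h : Set G) ⊓ X3 G a b c := fun k hk =>
    mem_inf.2 ⟨HN k hk, (mem_inf.1 (cx.hy.fr.Hle hk)).1⟩
  have hn : Nm (normalizer (zpowers h : Set G) ⊓ X3 G a b c) H := fun g hg =>
    nH g (mem_inf.1 hg).1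
  have hc : Nat.card (normalizer (zpowers h : Set G) ⊓ X3 G a b c : Subgroup G) =
      3 * Nat.card H := by rw [th.cardX, h6]
  have tC : ∀ y ∈ normalizer (zpowers h : Set G) ⊓ X3 G a b c,
      t * y * t⁻¹ ∈ normalizer (zpowers h : Set G) ⊓ X3 G a b c := fun y hy => by
    obtain ⟨ya, yb, yc⟩ := mem_X3.1 (mem_inf.1 hy).2
    refine mem_inf.2 ⟨mul_mem (mul_mem tN (mem_inf.1 hy).1) (inv_mem tN), mem_X3.2 ⟨?_, ?_, ?_⟩⟩
    · rw [mul_smul, mul_smul, tb', yb, tb]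
    · rw [mul_smul, mul_smul, ta', ya, ta]
    · rw [mul_smul, mul_smul, tc', yc, tc]
  obtain ⟨k1, k2, -⟩ := three hle hn hc
  refine abst (t0 := t) hle hn hc (nH t tN) tC (fun y hy => ?_) (cx.fh.cyc 3 Nat.prime_three)
    (fun x hx => mem_inf.2 ⟨?_, hTX hx⟩) pT
  · by_cases hyH : y ∈ H
    · exact mul_mem (nH t tN y hyH) hyH
    have yN := (mem_inf.1 hy).1
    obtain ⟨ya, yb, yc⟩ := mem_X3.1 (mem_inf.1 hy).2
    rcases k1 y hy hyH _ (tC y hy) with e | e | e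
    · refine (hyH ?_).elim
      have := nH _ (inv_mem tN) _ e
      convert this using 1; group
    · exfalso
      have com : ∀ ω ∈ fixedBy Ω h, t • y • t⁻¹ • ω = y • ω := fun ω hω => by
        have := fixH _ e ω hω
        rwa [mul_smul, inv_smul_eq_iff, mul_smul, mul_smul] at this
      have e1 : t • y • d = y • d := by have := com d hL.2.2.2; rwa [td'] at this
      have e2 : t • y • y • d = y • y • d := by
        have := com _ (hN y yN d hL.2.2.2)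
        rwa [inv_smul_eq_iff.2 e1.symm] at this
      have inj := MulAction.injective (β := Ω) y
      have n1 : d ≠ y • d := fun f => hyH ((th.nl y (mem_L4.2 ⟨ya, yb, yc, f.symm⟩)).1 yN)
      have n2 : d ≠ y • y • d := fun f => hyH (by
        have : y * y ∈ H := (th.nl _ (mem_L4.2 ⟨by rw [mul_smul, ya, ya], by rw [mul_smul, yb, yb],
          by rw [mul_smul, yc, yc], by rw [mul_smul, ← f]⟩)).1 (mul_mem yN yN)
        exact (mul_mem_cancel_left this).1 (k2 y hy))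
      have n3 : c ≠ y • d := fun f => cd (inj (yc.trans f))
      have n4 : c ≠ y • y • d := fun f => n3 (inj (yc.trans f))
      obtain ⟨g, gN, ga, gb, gc, gd⟩ := th.tr a b c d c d (y • d) (y • y • d)
        ⟨ab, ac, ad, bc, bd, cd⟩ ⟨cd, n3, n4, n1, n2, inj.ne n1⟩ hL.1 hL.2.1 hL.2.2.1 hL.2.2.2
        hL.2.2.1 hL.2.2.2 (hN y yN d hL.2.2.2) (hN y yN _ (hN y yN d hL.2.2.2))
      have m1 : g⁻¹ * t * g ∈ H := (th.nl _ (mem_L4.2 ⟨conj_smul_iff.2 (by rw [ga, tc]),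
        conj_smul_iff.2 (by rw [gb, td]), conj_smul_iff.2 (by rw [gc, e1]),
        conj_smul_iff.2 (by rw [gd, e2])⟩)).1 (mul_mem (mul_mem (inv_mem gN) tN) gN)
      have m2 : t ∈ H := by
        have := nH g gN _ m1
        convert this using 1; group
      exact ab ((fixH t m2 a hL.1).symm.trans ta)
    · have := nH _ (inv_mem yN) _ e
      convert this using 1; group
  · refine centralizer_le_normalizer _ (mem_centralizer_iff.2 fun z hz => ?_)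
    obtain ⟨l, rfl⟩ := mem_zpowers_iff.1 hz
    exact ((show Commute x h from hTh x hx).zpow_right l).symm

end H3.FBB0
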