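import Cfsg.Agent.H86.M8.Def

/-! Slot `SG` of the tower O84M: the group of pairs has order `60`, is the normal closure of an
element of order `5`, and is perfect. -/

set_option autoImplicit false

namespace H3.O84SG

open H86.M8 Subgroup

theorem card_S : Fintype.card S = 60 := by decide +kernel

theorem five_conj : ∀ x : S, x * x * x * x * x = 1 →
    ∃ g : S, ∃ k : ZMod 5, g * cS k * g⁻¹ = x := by decide +kernel

theorem two_five : ∀ p : S, ∃ x : S, x * x * x * x * x = 1 ∧
    (x⁻¹ * p) * (x⁻¹ * p) * (x⁻¹ * p) * (x⁻¹ * p) * (x⁻¹ * p) = 1 := by decide +kernel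

theorem cS_pow : ∀ k : ZMod 5, cS k = cS 1 ^ k.val := by decide +kernel

theorem cS_comm : cS 1 = sS * cS 2 * sS⁻¹ * (cS 2)⁻¹ := by decide +kernel

theorem top_of (N : Subgroup S) [hN : N.Normal] (h : cS 1 ∈ N) : N = ⊤ := by
  have k : ∀ x : S, x * x * x * x * x = 1 → x ∈ N := fun x hx => by
    obtain ⟨g, k, rfl⟩ := five_conj x hx
    exact hN.conj_mem _ (cS_pow k ▸ N.pow_mem h _) g
  refine (eq_top_iff' N).2 fun p => ?_
  obtain ⟨x, h1, h2⟩ := two_five p
  simpa using N.mul_mem (k _ h1) (k _ h2)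

theorem jSG : H86.M8.SG := by
  refine ⟨by rw [Nat.card_eq_fintype_card, card_S],
    top_of _ (subset_normalClosure (Set.mem_singleton _)), top_of _ ?_⟩
  rw [cS_comm, ← commutatorElement_def]
  exact commutator_mem_commutator (mem_top _) (mem_top _)

end H3.O84SG
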