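import Cfsg.Agent.H47.P4Sp
import Cfsg.Agent.H11.QdSylow
import Cfsg.Agent.H98.Sylow

/-! Tools `Inn` and `Bor` of the blueprint `LOCAL3C.md`, section 3.1. -/

set_option autoImplicit false
open Cfsg H47.P4C H11 Subgroup H98

namespace H3.P4T

universe u v

variable {F : Type*} [Field F]

/-- the projection `SL₂ → PSL₂` -/
abbrev pr (F : Type*) [Field F] : SL2 F →* PSL2 F := QuotientGroup.mk' _

theorem pr_surj : Function.Surjective (pr F) := QuotientGroup.mk'_surjective _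

theorem pr_eq {A B : SL2 F} (h : pr F A = pr F B) : ∃ r : F, ∀ i j, A i j = r * B i j := by
  have h1 : A * B⁻¹ ∈ center (SL2 F) := by
    rw [← QuotientGroup.eq_one_iff]
    change pr F (A * B⁻¹) = 1
    rw [map_mul, map_inv, h, mul_inv_cancel]
  obtain ⟨r, -, hr⟩ := Matrix.SpecialLinearGroup.mem_center_iff.1 h1
  refine ⟨r, fun i j => ?_⟩
  have e : ∀ i j, (A * B⁻¹) i j = Matrix.scalar (Fin 2) r i j := fun i j => by rw [hr]
  have : A = A * B⁻¹ * B := by group
  rw [this, sl_mul_apply, e, e]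
  fin_cases i <;> simp

theorem w_conj (y : F) : wM * uMat (-y) * wM⁻¹ = lMat y := by
  apply sl_ext <;> simp only [sl_mul_apply, sl_inv_00, sl_inv_01, sl_inv_10, sl_inv_11] <;> simp [wM]

theorem conj_u (A : SL2 F) (s : F) (hc : A 1 0 ≠ 0) : A * uMat s * A⁻¹ =
    uMat (A 0 0 / A 1 0) * lMat (-(A 1 0 ^ 2 * s)) * (uMat (A 0 0 / A 1 0))⁻¹ := by
  have hd := sl_det A
  apply sl_ext <;> simp only [sl_mul_apply, sl_inv_00, sl_inv_01, sl_inv_10, sl_inv_11] <;> simp
  · field_simp; linear_combination hd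
  · field_simp; ring
  · ring
  · field_simp; linear_combination hd

theorem conj_u01 (A : SL2 F) : (A * uMat 1 * A⁻¹ : SL2 F) 0 1 = A 0 0 ^ 2 := by
  simp only [sl_mul_apply, sl_inv_01, sl_inv_11]; simp; ring

theorem n_conj {y : F} (hy : y ≠ 0) : lMat y * uMat (-y⁻¹) * lMat y * uMat 1 *
    (lMat y * uMat (-y⁻¹) * lMat y)⁻¹ = lMat (-y ^ 2) := by
  rw [mul_inv_eq_iff_eq_mul]
  apply sl_ext <;> simp only [sl_mul_apply] <;> simp [hy]
  field_simp

/-- a homomorphism fixing `U` pointwise and preserving the lower group is the projection -/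
theorem fix_of_lower (τ : SL2 F →* PSL2 F) (hU : ∀ s, τ (uMat s) = pr F (uMat s))
    (hL : ∀ y, ∃ y', τ (lMat y) = pr F (lMat y')) (g : SL2 F) : τ g = pr F g := by
  have : τ.eqLocus (pr F) = ⊤ := by
    refine eq_top_of_uMat_lMat _ hU fun y => ?_
    change τ (lMat y) = pr F (lMat y)
    by_cases hy : y = 0
    · rw [hy, lMat_zero, map_one, map_one]
    obtain ⟨φ, hφ⟩ := hL y
    obtain ⟨φ', hφ'⟩ := hL (-y ^ 2)
    rw [← n_conj hy] at hφ'
    simp only [map_mul, map_inv, hφ, hU] at hφ'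
    simp only [← map_mul, ← map_inv] at hφ'
    obtain ⟨r, hr⟩ := pr_eq hφ'
    have h0 := hr 0 1
    rw [conj_u01] at h0
    have h1 : (lMat φ * uMat (-y⁻¹) * lMat φ) 0 0 = 0 := by
      apply pow_eq_zero_iff (two_ne_zero) |>.1; rw [h0]; simp
    simp only [sl_mul_apply] at h1
    simp at h1
    rw [hφ, show φ = y by field_simp at h1; linear_combination -h1]
  exact (this.ge (mem_top g) :)

variable (p : ℕ) [Fact p.Prime] [CharP F p] [Finite F]

theorem syl_U : IsSyl p ((uSub F).map (pr F)) ⊤ := by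
  have := (isSyl_sylow (sylU (F := F) p)).map (pr F)
  rwa [map_top_of_surjective _ pr_surj] at this

include p in
theorem inn_core (σ : PSL2 F →* PSL2 F) (hσ : Function.Injective σ)
    (h : ∀ s, σ (pr F (uMat s)) = pr F (uMat s)) :
    ∃ s, ∀ g, σ g = pr F (uMat s) * g * (pr F (uMat s))⁻¹ := by
  obtain ⟨g0, -, hg⟩ := (syl_U (F := F) p).exists_le_cj
    ((((syl_U (F := F) p).cj (pr F wM)).isPGroup).map σ) le_top
  obtain ⟨A, rfl⟩ := pr_surj g0
  have hL : ∀ y, ∃ s, σ (pr F (lMat y)) = pr F (A * uMat s * A⁻¹) := fun y => by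
    have h1 : pr F (lMat y) ∈ cj (pr F wM) ((uSub F).map (pr F)) := by
      rw [← w_conj, map_mul, map_mul, map_inv]
      exact conj_mem_cj (mem_map_of_mem _ (uMat_mem_uSub _))
    obtain ⟨_, ⟨_, ⟨s, rfl⟩, rfl⟩, e⟩ := hg (mem_map_of_mem _ h1)
    exact ⟨s.toAdd, by rw [← e, map_mul, map_mul, map_inv]; rfl⟩
  by_cases hc : A 1 0 = 0
  · obtain ⟨s, hs⟩ := hL 1
    rw [conj_uMat_of_10 hc, ← h] at hs
    obtain ⟨r, hr⟩ := pr_eq (hσ hs)
    simpa using hr 1 0
  refine ⟨A 0 0 / A 1 0, fun g => ?_⟩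
  obtain ⟨g, rfl⟩ := pr_surj g
  generalize ha : pr F (uMat (A 0 0 / A 1 0)) = a
  have := fix_of_lower ((MulAut.conj a⁻¹).toMonoidHom.comp (σ.comp (pr F)))
    (fun s => ?_) (fun y => ?_) g
  · change a⁻¹ * σ (pr F g) * a⁻¹⁻¹ = _ at this
    generalize pr F g = x at this ⊢
    generalize σ x = y at this ⊢
    rw [← this]; group
  · change a⁻¹ * σ (pr F _) * a⁻¹⁻¹ = _
    rw [h, inv_inv, ← ha]
    simp only [← map_inv, ← map_mul, ← uMat_neg, ← uMat_add]
    congr 2; ring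
  · obtain ⟨s, hs⟩ := hL y
    refine ⟨-(A 1 0 ^ 2 * s), ?_⟩
    change a⁻¹ * σ (pr F _) * a⁻¹⁻¹ = _
    rw [hs, conj_u A s hc, map_mul, map_mul, map_inv, ha]
    group

theorem card_syl (S : Sylow p (PSL2 F)) : Nat.card (S : Subgroup (PSL2 F)) = Nat.card F := by
  rw [(isSyl_sylow S).card_eq, ← (syl_U (F := F) p).card_eq]
  refine (Nat.card_congr (Equiv.ofBijective
    (fun s : F => (⟨pr F (uMat s), mem_map_of_mem _ (uMat_mem_uSub s)⟩ : (uSub F).map (pr F)))
    ⟨fun s s' e => ?_, ?_⟩)).symm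
  · obtain ⟨r, hr⟩ := pr_eq (congrArg Subtype.val e)
    have h0 := hr 0 0
    have h1 := hr 0 1
    simp at h0 h1
    rw [h1, ← h0, one_mul]
  · rintro ⟨_, _, ⟨s, rfl⟩, rfl⟩
    exact ⟨s.toAdd, rfl⟩

/-- **Inn** -/
theorem jobInn : JobInn.{v} := by
  intro F _ _ p _ S σ hp h
  have : CharP F p := (CharP.charP_iff_prime_eq_zero Fact.out).2 hp
  obtain ⟨g, -, hg⟩ := (syl_U (F := F) p).exists_cj_eq (isSyl_sylow S)
  have hm : ∀ s, g * pr F (uMat s) * g⁻¹ ∈ (S : Subgroup (PSL2 F)) := fun s =>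
    hg ▸ conj_mem_cj (mem_map_of_mem _ (uMat_mem_uSub s))
  obtain ⟨s, hs⟩ := inn_core p ((MulAut.conj g)⁻¹ * σ * MulAut.conj g).toMonoidHom
    (MulEquiv.injective _) fun s => by
      simp only [MulEquiv.coe_toMonoidHom, MulAut.mul_apply, MulAut.conj_apply, h _ (hm s),
        MulAut.conj_inv_apply]
      group
  refine ⟨_, hm s, fun x => ?_⟩
  have := hs (g⁻¹ * x * g)
  simp only [MulEquiv.coe_toMonoidHom, MulAut.mul_apply, MulAut.conj_apply,
    MulAut.conj_inv_apply] at this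
  rw [show g * (g⁻¹ * x * g) * g⁻¹ = x by group] at this
  calc σ x = g * (g⁻¹ * σ x * g) * g⁻¹ := by group
    _ = _ := by rw [this]; group

theorem exists_sq_ne {F : Type*} [Field F] [Fintype F] (h : 3 < Fintype.card F) :
    ∃ l : Fˣ, (l : F) ^ 2 ≠ 1 := by
  classical
  by_contra hn
  push Not at hn
  have : (Finset.univ : Finset F) ⊆ {0, 1, -1} := fun x _ => by
    by_cases hx : x = 0
    · simp [hx]
    · have := hn (Units.mk0 x hx)
      simp only [Units.val_mk0, sq_eq_one_iff] at this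
      simp [this]
  have h1 := Finset.card_le_card this
  have h2 : ({0, 1, -1} : Finset F).card ≤ 3 := Finset.card_le_three
  rw [Finset.card_univ] at h1
  omega

theorem fld_lt {F : Type*} [Field F] [Fintype F] (h : Fld F) : 3 < Fintype.card F := by
  obtain ⟨m, -, h1, h2⟩ := h
  rw [h2]
  calc 3 = 3 ^ 1 := rfl
    _ < 3 ^ m := Nat.pow_lt_pow_right (by decide) h1

/-- **Bor** -/
theorem jobBor : JobBor.{u, v} := by
  intro G _ F _ _ ψ g hF hψ hN hU hH
  obtain ⟨l, hl⟩ := exists_sq_ne (fld_lt hF)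
  obtain ⟨W, hW⟩ : g * ψ wM * g⁻¹ ∈ ψ.range := (hN _).1 ⟨wM, rfl⟩
  have cU : ∀ s, g * ψ (uMat s) * g⁻¹ = ψ (uMat s) := fun s => by
    change g * ψ (uM s) * g⁻¹ = ψ (uM s)
    rw [← hU _ ⟨s, rfl⟩, mul_inv_cancel_right]
  have cH : ∀ l, g * ψ (dM l) * g⁻¹ = ψ (dM l) := fun s => by
    rw [← hH _ ⟨s, rfl⟩, mul_inv_cancel_right]
  have e1 : W * dM l = dM l⁻¹ * W := by
    have : wM * dM l = dM l⁻¹ * wM := by
      apply sl_ext <;> simp only [sl_mul_apply] <;> simp [wM, dM]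
    apply hψ
    rw [map_mul, map_mul, hW, ← cH l, ← cH l⁻¹, conj_mul, conj_mul, ← map_mul, ← map_mul, this]
  have e2 : W = uMat 1 * (W * uMat 1 * W⁻¹) * uMat 1 := by
    have : wM = uMat (1 : F) * (wM * uMat 1 * wM⁻¹) * uMat 1 := by
      apply sl_ext <;> simp only [sl_mul_apply, sl_inv_00, sl_inv_01, sl_inv_10, sl_inv_11] <;>
        simp [wM]
    apply hψ
    simp only [map_mul, map_inv, hW]
    rw [← cU 1, conj_inv, conj_mul, conj_mul, conj_mul, conj_mul]
    simp only [← map_mul, ← map_inv, ← this]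
  have hl0 : (l : F) ≠ 0 := l.ne_zero
  have a0 : W 0 0 = 0 := by
    have := congrArg (fun A : SL2 F => A 0 0) e1
    simp only [sl_mul_apply] at this
    simp [dM] at this
    field_simp at this
    by_contra h0
    exact hl (mul_left_cancel₀ h0 (by rw [mul_one]; exact this))
  have d0 : W 1 1 = 0 := by
    have := congrArg (fun A : SL2 F => A 1 1) e1
    simp only [sl_mul_apply] at this
    simp [dM] at this
    field_simp at this
    by_contra h0
    exact hl (mul_left_cancel₀ h0 (by rw [mul_one]; exact this.symm))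
  have hd := sl_det W
  rw [a0, d0] at hd
  have c1 : W 1 0 = -1 := by
    have := congrArg (fun A : SL2 F => A 1 0) e2
    simp only [sl_mul_apply, sl_inv_00, sl_inv_10, a0, d0] at this
    simp at this
    have h0 : W 1 0 ≠ 0 := fun e => by simp [e] at hd
    exact mul_left_cancel₀ h0 (by linear_combination this)
  have eW : W = wM := by
    apply sl_ext <;> simp [wM, a0, d0, c1]
    rw [c1] at hd; linear_combination hd
  have : ((MulAut.conj g).toMonoidHom.comp ψ).eqLocus ψ = ⊤ := by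
    refine eq_top_of_uMat_lMat _ cU fun y => ?_
    change g * ψ (lMat y) * g⁻¹ = ψ (lMat y)
    rw [← w_conj, map_mul, map_mul, map_inv, ← conj_mul, ← conj_mul, ← conj_inv, ← hW, eW, cU]
  rintro _ ⟨A, rfl⟩
  have h1 : g * ψ A * g⁻¹ = ψ A := (this.ge (mem_top A) :)
  exact (mul_inv_eq_iff_eq_mul.1 h1).symm

end H3.P4T
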