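/- U4 tower, chapter q = 3: conjugates of reflections and the centralizer of four reflections. -/
import Cfsg.Agent.H90.Q3Spec

set_option autoImplicit false

open Subgroup H28.U4 H77 Cfsg H90.Q3

namespace H3.Q3

set_option synthInstance.maxSize 1000 in
theorem tr0 : ∀ a b c d e f : ZMod 3, a * a + b * c + f * e = -1 → a * b + b * d = 0 →
    c * a + d * c = 0 → a * f + f * d = 0 → e * a + d * e = 0 → d = -a := by decide +kernel

theorem exists_Jf {h : W → W} (hA : Ad h) (hs : ∀ w w', bf T9 (h w) w' = bf T9 w (h w'))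
    (h2 : ∀ w, h (h w) = -w) : ∃ y, Ro y ∧ ∀ w, h w = Jf y w := by
  have hs' := fun i j => congrArg QuadraticAlgebra.re (hs (bs i) (bs j))
  have hq := fun i => (hA.eq (h (bs i))).symm.trans (h2 (bs i))
  have s00 := hs' 0 0; have s01 := hs' 0 1; have s02 := hs' 0 2; have s03 := hs' 0 3
  have s11 := hs' 1 1; have s12 := hs' 1 2; have s13 := hs' 1 3; have s22 := hs' 2 2
  have s23 := hs' 2 3; have s33 := hs' 3 3
  have q0 := hq 0; have q1 := hq 1; have q3 := hq 3
  suffices ∃ y, ∀ i, h (bs i) = Jf y (bs i) by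
    obtain ⟨y, hy⟩ := this
    have e := hA.ext (Jf_add y) hy
    refine ⟨y, ?_, e⟩
    have := congrArg (fun w : W => w.1.re) (h2 (bs 0))
    rw [e, e, Jf_sq] at this
    exact (show dot y y = -1 by simpa [bs] using this)
  simp only [Fin.forall_fin_succ, IsEmpty.forall_iff, and_true]
  change ∃ y, h (bs 0) = _ ∧ h (bs 1) = Jf y (bs 1) ∧ h (bs 2) = Jf y (bs 2) ∧ h (bs 3) = Jf y (bs 3)
  clear hs' hq
  generalize h (bs 0) = u0 at *
  generalize h (bs 1) = u1 at *
  generalize h (bs 2) = u2 at *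
  generalize h (bs 3) = u3 at *
  obtain ⟨⟨a, c⟩, ⟨m20, m30⟩⟩ := u0
  obtain ⟨⟨b, d⟩, ⟨e, m31⟩⟩ := u1
  obtain ⟨⟨m02, f⟩, ⟨m22, m32⟩⟩ := u2
  obtain ⟨⟨m03, m13⟩, ⟨m23, m33⟩⟩ := u3
  have z : ∀ x : ZMod 3, x = -x → x = 0 := by decide
  simp [bf_eq, bs] at s00 s01 s02 s03 s11 s12 s13 s22 s23 s33
  obtain rfl := z _ s00
  obtain rfl := z _ s11
  obtain rfl := z _ s22.symm
  obtain rfl := z _ s33.symm
  subst s01 s02 s03 s12 s13 s23
  simp [bs, Prod.ext_iff, QuadraticAlgebra.ext_iff] at q0 q1 q3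
  obtain rfl : d = -a := tr0 a b c d e f (by linear_combination q0.1.1) (by linear_combination q1.1.1)
    (by linear_combination q0.1.2) (by linear_combination -q3.1.1) (by linear_combination -q0.2.2)
  clear q0 q1 q3
  refine ⟨⟨f - e - b + c, f - e + b - c, -(e + f), -(b + c), a⟩, ?_, ?_, ?_, ?_⟩ <;>
    apply W_ext <;> simp [Jf, bs] <;> revert b c e f <;> decide +kernel

theorem jobCj : JobCj := by
  intro G hG g hg x hx
  have ha := hG.add g hg
  have hi := hG.add _ (inv_mem hg)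
  have e1 : ∀ w, g (g⁻¹ w) = w := fun w => by simp
  have e2 : ∀ w, g⁻¹ (g w) = w := fun w => by simp
  obtain ⟨y, hy, e⟩ := exists_Jf (h := fun w => g (Jf x (g⁻¹ w)))
    (fun w w' => by beta_reduce; rw [hi, Jf_add, ha]) (fun w w' => by
      rcases hG.sim g hg with k | k
      · rw [← e1 w', k, bf_Jf, ← k, e1, e1]
      · rw [← e1 w', k, bf_Jf, ← k, e1, e1])
    (fun w => by
      rw [e2, Jf_sq, hx.1, ha.smul, e1]
      exact neg_one_smul (ZMod 3) w)
  have c : Cn g x y := Equiv.ext fun w => by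
    simp only [Equiv.Perm.mul_apply, hx.1.apply, hy.apply, ← e, e2]
  exact ⟨y, ⟨hy, c.conj ▸ mul_mem (mul_mem hg hx.2) (inv_mem hg)⟩, c⟩

/-- a word in four letters -/
def wf (B : Fin 4 → V) (l : List (Fin 4)) (v : W) : W := l.foldr (fun i => Jf (B i)) v

/-- the additive map determined by the image of the first basis vector -/
def ph (B : Fin 4 → V) (L : Fin 4 → List (Fin 4)) (v w : W) : W :=
  w.1.re • wf B (L 0) v + w.1.im • wf B (L 1) v + w.2.re • wf B (L 2) v + w.2.im • wf B (L 3) v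

theorem sch {B : Fin 4 → V} (L : Fin 4 → List (Fin 4)) (h : (∀ i, Ro (B i)) ∧
    (∀ j, wf B (L j) (bs 0) = bs j) ∧ (∀ j, wf B (L j) (-bs 0) = -bs j) ∧
      ∀ v : W, (∀ i j, ph B L v (Jf (B i) (bs j)) = Jf (B i) (wf B (L j) v)) →
        v = 0 ∨ v = bs 0 ∨ v = -bs 0)
    {g : Equiv.Perm W} (hg : Ad g) (hc : ∀ i, Cn g (B i) (B i)) : g = 1 ∨ g = mo := by
  obtain ⟨h0, h1, h2, h3⟩ := h
  have c : ∀ i w, g (Jf (B i) w) = Jf (B i) (g w) := fun i w => by
    simpa only [Equiv.Perm.mul_apply, (h0 i).apply] using Equiv.congr_fun (hc i) w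
  have c' : ∀ l w, g (wf B l w) = wf B l (g w) := fun l w => by
    induction l with
    | nil => rfl
    | cons i l ih => exact (c i _).trans (congrArg _ ih)
  have e : ∀ j, g (bs j) = wf B (L j) (g (bs 0)) := fun j => by rw [← c', h1]
  rcases h3 (g (bs 0)) (fun i j => by
    rw [← e, ← c, hg.eq (Jf _ _), ph, ← e, ← e, ← e, ← e]) with k | k | k
  · exact absurd (g.injective (k.trans hg.zero.symm)) (by decide)
  · exact Or.inl (Equiv.ext (hg.ext (fun _ _ => rfl) fun j => by rw [e, k, h1]; rfl))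
  · exact Or.inr (Equiv.ext (hg.ext (fun _ _ => neg_add _ _) fun j => by rw [e, k, h2]; rfl))

theorem jobSch : JobSch := fun _ hg h => h.elim
  (sch ![[], [0, 0, 0], [0, 2, 1, 0], [2, 1, 0, 0, 0]] (by decide +kernel) hg)
  (sch ![[], [0, 0, 0], [3, 1], [3, 2, 0]] (by decide +kernel) hg)

end H3.Q3
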