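import Cfsg.Agent.H30.SQSpec

/-! Tower SQ (S4132), slot C3. -/

set_option autoImplicit false

open Cfsg Subgroup H30.SQ

namespace H3.SQ

universe u

variable {G : Type u} [Group G]

theorem br_nor {T : Subgroup G} {w s g : G} (h : Br T w) (hs : s ∈ T) (hg : g ∈ T)
    (c : Commute s w) : Commute (g * s * g⁻¹) w := by
  rcases h.2 (g * s) (mul_mem hg hs) g⁻¹ (inv_mem hg) with k | k | k
  · exact k.mul_left (by simpa using (k.mul_left c.inv_left).inv_left)
  · exact (Commute.mul_left (by simpa using k.inv_left) c).mul_left k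
  · exact k

/-- `C_U(w) ⟨w⟩` -/
def P0 (U : Subgroup G) (w : G) : Subgroup G where
  carrier := {s | ∃ u ∈ U, Commute u w ∧ ∃ i : ℤ, s = u * w ^ i}
  one_mem' := ⟨1, one_mem _, Commute.one_left _, 0, by simp⟩
  mul_mem' := by
    rintro _ _ ⟨u, hu, c, i, rfl⟩ ⟨u', hu', c', j, rfl⟩
    exact ⟨u * u', mul_mem hu hu', c.mul_left c', i + j, by
      rw [zpow_add, mul_assoc, ← mul_assoc (w ^ i), ← (c'.zpow_right i).eq]; group⟩
  inv_mem' := by
    rintro _ ⟨u, hu, c, i, rfl⟩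
    exact ⟨u⁻¹, inv_mem hu, c.inv_left, -i, by
      rw [mul_inv_rev, ← zpow_neg, (c.inv_left.zpow_right (-i)).eq]⟩

/-- `P ⟨a⟩` -/
def ex2 (P : Subgroup G) (a : G) (a2 : a * a = 1) (h : ∀ p ∈ P, a * p * a⁻¹ ∈ P) : Subgroup G where
  carrier := {s | s ∈ P ∨ s * a⁻¹ ∈ P}
  one_mem' := .inl (one_mem _)
  mul_mem' := by
    rintro s t (hs | hs) (ht | ht)
    · exact .inl (mul_mem hs ht)
    · exact .inr (by simpa [mul_assoc] using mul_mem hs ht)
    · exact .inr (by simpa [mul_assoc] using mul_mem hs (h _ ht))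
    · refine .inl ?_
      have := mul_mem hs (h _ ht)
      rwa [show s * a⁻¹ * (a * (t * a⁻¹) * a⁻¹) = s * t * (a * a)⁻¹ by group, a2, inv_one,
        mul_one] at this
  inv_mem' := by
    rintro s (hs | hs)
    · exact .inl (inv_mem hs)
    · refine .inr ?_
      have := h _ (inv_mem hs)
      rwa [mul_inv_rev, inv_inv, ← mul_assoc, a2, one_mul] at this

theorem cm_mem {U X : Subgroup G} (ix : ∀ s ∈ U, ∀ t ∈ U, s ∈ X ∨ t ∈ X ∨ s * t ∈ X) {s t : G}
    (hs : s ∈ U) (ht : t ∈ U) : s * t * s⁻¹ * t⁻¹ ∈ X := by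
  have k : ∀ s ∈ U, ∀ t ∈ U, s * t ∈ X → t * s ∈ X := fun s hs t ht h => by
    rcases ix t ht s hs with k | k | k
    exacts [mul_mem k ((mul_mem_cancel_right k).1 h), mul_mem ((mul_mem_cancel_left k).1 h) k, k]
  rw [mul_assoc, ← mul_inv_rev]
  rcases ix _ (mul_mem hs ht) _ (inv_mem (mul_mem ht hs)) with h | h | h
  exacts [mul_mem h (inv_mem (k s hs t ht h)), mul_mem (k t ht s hs (inv_mem_iff.1 h)) h, h]

theorem jobC3 : JobC3.{u} := by
  intro G _ _ T U Ux n w c z v a H M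
  obtain ⟨m, hm⟩ := H.ev
  obtain ⟨k, n2, hk⟩ : ∃ k, n / 2 = k ∧ n = k * 2 := ⟨2 ^ m, by rw [hm, pow_succ]; simp, hm⟩
  have wT := M.br.1
  have aT := M.UT M.aU
  have wc := M.wc
  have ai : a⁻¹ = a := inv_eq_of_mul_eq_one_right M.a2
  have na : ¬ Commute a w := fun e => by
    have h1 := M.aw
    rw [e.eq, mul_inv_cancel_right, left_eq_mul] at h1
    have h2 := M.oc
    rw [h1, orderOf_one] at h2
    omega
  have ec : c = w⁻¹ * (a * w * a⁻¹) := by rw [M.aw, inv_mul_cancel_left]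
  have cT : c ∈ T := ec ▸ mul_mem (inv_mem wT) (mul_mem (mul_mem aT wT) (inv_mem aT))
  have ac : a * c * a⁻¹ = c⁻¹ := by
    have : a * (a * w * a⁻¹) * a⁻¹ = w := by
      rw [← mul_assoc, ← mul_assoc, M.a2, one_mul, mul_assoc, ai, M.a2, mul_one]
    rw [M.aw, ← conj_mul, M.aw, mul_assoc, mul_eq_left] at this
    exact eq_inv_of_mul_eq_one_right this
  have sc : ∀ s ∈ T, Commute s w → Commute s c := fun s hs h => by
    have := (br_nor M.br hs (inv_mem aT) h).conj a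
    rw [inv_inv, ← mul_assoc, ← mul_assoc, mul_inv_cancel, one_mul, mul_inv_cancel_right] at this
    exact ec ▸ h.inv_right.mul_right this
  have sa : ∀ s ∈ T, Commute s w ∨ Commute (s * a) w := fun s hs => by
    rcases M.br.2 s hs a aT with h | h | h
    exacts [.inl h, absurd h na, .inr h]
  have cen : ∀ y ∈ T, (∀ s ∈ T, Commute s w → Commute s y) → Commute a y → Cen T y :=
    fun y hy h1 h2 => ⟨hy, fun s hs => (sa s hs).elim (h1 s hs) fun h => by
      simpa using (h1 _ (mul_mem hs aT) h).mul_left h2.inv_left⟩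
  have cn : c ^ n = 1 := M.oc ▸ pow_orderOf_eq_one c
  have zk : z = c ^ k := n2 ▸ M.zc
  have zz : z * z = 1 := by rw [zk, ← pow_add, ← mul_two, ← hk, cn]
  have zc : Cen T z := cen z (zk ▸ pow_mem cT k) (fun s hs h => zk ▸ (sc s hs h).pow_right k)
    (mul_inv_eq_iff_eq_mul.1 (by
      rw [zk, ← conj_pow, ac, inv_pow, ← zk, inv_eq_of_mul_eq_one_right zz]))
  have ze : Cen T (w * w * c) := cen _ (mul_mem (mul_mem wT wT) cT)
    (fun s hs h => (h.mul_right h).mul_right (sc s hs h)) (mul_inv_eq_iff_eq_mul.1 (by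
      rw [← conj_mul, ← conj_mul, M.aw, ac, mul_assoc, mul_inv_cancel_right, mul_assoc, ← wc.eq,
        mul_assoc]))
  have cx : ∀ j : ℤ, c ^ j ∈ Ux → c ^ j = 1 := fun j h => by
    have h1 := ((M.Ca _ (zpow_mem cT j)).2 (M.xU h)).eq
    rw [eq_comm, ← mul_inv_eq_iff_eq_mul, ← conj_zpow, ac, inv_zpow, inv_eq_iff_mul_eq_one,
      ← zpow_add, ← orderOf_dvd_iff_zpow_eq_one, M.oc, hk] at h1
    obtain ⟨l, e⟩ := h1
    obtain rfl : j = k * l := by push_cast at e; linarith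
    rw [zpow_mul, zpow_natCast, ← zk] at h ⊢
    obtain ⟨r, rfl | rfl⟩ := Int.even_or_odd' l
    · rw [zpow_mul, zpow_two, zz, one_zpow]
    · rw [zpow_add_one, zpow_mul, zpow_two, zz, one_zpow, one_mul] at h
      exact absurd h M.zx
  have aw : ∀ i : ℤ, a * w ^ i * a⁻¹ = w ^ i * c ^ i := fun i => by
    rw [← conj_zpow, M.aw, wc.mul_zpow]
  have wa : ∀ i : ℤ, w ^ i * a * (w ^ i)⁻¹ = c ^ (-i) * a := fun i => by
    have := aw (-i)
    rw [mul_inv_eq_iff_eq_mul] at this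
    rw [← zpow_neg, mul_assoc, this, mul_assoc, ← mul_assoc, ← zpow_add, add_neg_cancel, zpow_zero,
      one_mul]
  have ua : ∀ u ∈ U, Commute u a := fun u hu => (M.Ca u (M.UT hu)).2 hu
  have wP : w ∈ P0 U w := ⟨1, one_mem _, Commute.one_left _, 1, by simp⟩
  have uP : ∀ u ∈ U, Commute u w → u ∈ P0 U w := fun u hu h => ⟨u, hu, h, 0, by simp⟩
  have cP : c ∈ P0 U w := (mul_mem_cancel_left (mul_mem wP wP)).1
    (uP _ (M.ZU _ ze) (ze.2 w wT).symm)
  have aP : ∀ p ∈ P0 U w, a * p * a⁻¹ ∈ P0 U w := by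
    rintro _ ⟨u, hu, h, i, rfl⟩
    rw [← conj_mul, aw, ← (ua u hu).eq, mul_inv_cancel_right]
    exact mul_mem (uP u hu h) (mul_mem (zpow_mem wP i) (zpow_mem cP i))
  have PT : ∀ p ∈ P0 U w, p ∈ T ∧ Commute p w := by
    rintro _ ⟨u, hu, h, i, rfl⟩
    exact ⟨mul_mem (M.UT hu) (zpow_mem wT i), h.mul_left (Commute.zpow_self w i)⟩
  have top : ∀ s ∈ T, s ∈ ex2 (P0 U w) a M.a2 aP := by
    generalize hT2 : ex2 (P0 U w) a M.a2 aP = T2
    have m2 : ∀ s, s ∈ T2 ↔ s ∈ P0 U w ∨ s * a⁻¹ ∈ P0 U w := fun s => by rw [← hT2]; rfl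
    have a2 : a ∈ T2 := (m2 a).2 (.inr (by simp))
    have c2 : ∀ s ∈ T2, Commute s w → s ∈ P0 U w := fun s hs h => ((m2 s).1 hs).elim id fun k =>
      absurd (by simpa using (h.inv_left.mul_left (PT _ k).2).inv_left) na
    have j2 : ∀ s ∈ T2, ∃ j : ℤ, s * a * s⁻¹ = c ^ j * a := fun s hs => by
      have : ∀ s ∈ P0 U w, ∃ j : ℤ, s * a * s⁻¹ = c ^ j * a := by
        rintro _ ⟨u, hu, h, i, rfl⟩
        refine ⟨-i, ?_⟩
        rw [show u * w ^ i * a * (u * w ^ i)⁻¹ = u * (w ^ i * a * (w ^ i)⁻¹) * u⁻¹ by group, wa,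
          (((sc u (M.UT hu) h).zpow_right _).mul_right (ua u hu)).eq, mul_inv_cancel_right]
      rcases (m2 s).1 hs with h | h
      · exact this s h
      · simpa [mul_assoc] using this _ h
    by_contra! ne
    obtain ⟨g, gT, gN, g1, gw, g2⟩ : ∃ g ∈ T, g ∈ normalizer (T2 : Set G) ∧ g ∉ T2 ∧ Commute g w ∧
        g * g ∈ T2 := by
      obtain ⟨g, gT, gN, g1, g2⟩ := ex_sig H.pg (fun s hs => ((m2 s).1 hs).elim (fun h => (PT s h).1)
        fun h => (mul_mem_cancel_right (inv_mem aT)).1 (PT _ h).1) ne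
      rcases sa g gT with h | h
      · exact ⟨g, gT, gN, g1, h, g2⟩
      · refine ⟨g * a, mul_mem gT aT, mul_mem gN (le_normalizer a2),
          fun k => g1 ((mul_mem_cancel_right a2).1 k), h, ?_⟩
        rw [show g * a * (g * a) = g * a * g⁻¹ * (g * g) * a by group]
        exact mul_mem (mul_mem ((gN a).1 a2) g2) a2
    have gc := sc g gT gw
    obtain ⟨u, hu, uw, i, e⟩ : g * a * g⁻¹ * a⁻¹ ∈ P0 U w := ((m2 _).1 ((gN a).1 a2)).resolve_left
      fun k => na (by simpa [mul_assoc] using (gw.inv_left.mul_left (PT _ k).2).mul_left gw)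
    rw [mul_inv_eq_iff_eq_mul] at e
    have u0 : ∀ y ∈ U, Commute y w → Commute y u := fun y hy yw => by
      obtain ⟨j, h⟩ := j2 (g⁻¹ * y * g) ((gN _).2 (by
        simpa [mul_assoc] using (m2 y).2 (.inl (uP y hy yw))))
      have h1 : y * (g * a * g⁻¹) * y⁻¹ = c ^ j * (g * a * g⁻¹) := by
        rw [← mul_assoc (c ^ j), ← mul_assoc (c ^ j), ← (gc.zpow_right j).eq, mul_assoc g (c ^ j),
          ← h]
        group
      rw [e, mul_assoc u, ← conj_mul, ((yw.zpow_right i).mul_right (ua y hy)).eq,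
        mul_inv_cancel_right, ← mul_assoc (c ^ j), mul_left_inj, ← mul_inv_eq_iff_eq_mul] at h1
      have h2 := cm_mem M.ix hy hu
      rw [h1] at h2
      rw [cx j h2, mul_inv_eq_one, mul_inv_eq_iff_eq_mul] at h1
      exact h1
    have uU : ∀ y ∈ U, Commute y u := fun y hy => (sa y (M.UT hy)).elim (u0 y hy) fun h => by
      simpa using (u0 _ (mul_mem hy M.aU) h).mul_left (ua u hu).symm.inv_left
    have uc := sc u (M.UT hu) uw
    have d1 : (a * g) ^ 2 = u * (w ^ i * c ^ i) * (g * g) := by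
      rw [← aw, ← mul_assoc u, ← mul_assoc u, (ua u hu).eq, ai, mul_assoc a u, mul_assoc a, ← e, sq]
      group
    obtain ⟨p1, p2⟩ := PT _ (c2 _ g2 (gw.mul_left gw))
    have d2 : Commute (g * g) u := by
      obtain ⟨y, hy, yw, l, e⟩ := c2 _ g2 (gw.mul_left gw)
      rw [e]; exact (uU y hy).mul_left (uw.symm.zpow_left l)
    have d3 := H.ex _ (mul_mem aT gT)
    rw [pow_mul, d1, (d2.mul_right ((p2.zpow_right i).mul_right
      ((sc _ p1 p2).zpow_right i))).symm.mul_pow, ← sq, ← pow_mul, H.ex g gT, mul_one,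
      ((uw.zpow_right i).mul_right (uc.zpow_right i)).mul_pow, (wc.zpow_zpow i i).mul_pow,
      ← zpow_natCast (c ^ i), ← zpow_mul, mul_comm i, zpow_mul, zpow_natCast, cn, one_zpow, mul_one,
      ← zpow_natCast (w ^ i), ← zpow_mul, mul_comm i, zpow_mul, zpow_natCast] at d3
    have d4 : (w ^ n) ^ i ∈ Ux := by
      rw [eq_inv_of_mul_eq_one_right d3, inv_mem_iff, hk, pow_mul, sq]
      rcases M.ix _ (pow_mem hu k) _ (pow_mem hu k) with h | h | h
      exacts [mul_mem h h, mul_mem h h, h]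
    obtain ⟨j, rfl | rfl⟩ := Int.even_or_odd' i
    swap
    · rw [zpow_add_one, zpow_mul, zpow_two, ← pow_add, ← two_mul, H.ex w wT, one_zpow, one_mul] at d4
      exact M.ax d4
    obtain ⟨h, rfl⟩ : ∃ h, g = w ^ j * h := ⟨(w ^ j)⁻¹ * g, by simp⟩
    have hT : h ∈ T := (mul_mem_cancel_left (zpow_mem wT j)).1 gT
    have e2 : h * a * h⁻¹ = u * (w * w * c) ^ j * a := by
      have := wa (-j)
      rw [neg_neg, zpow_neg, inv_inv] at this
      rw [(wc.mul_left wc).mul_zpow, ← zpow_two, ← zpow_mul, ← mul_assoc u, mul_assoc _ (c ^ j), ← this,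
        ← mul_assoc, ← mul_assoc, ((uw.zpow_right j).mul_left
          ((Commute.refl w).zpow_zpow _ j)).inv_right.eq, mul_assoc _ _ a, ← e]
      group
    have hN : h ∈ normalizer (U : Set G) := by
      refine inv_mem_iff.1 (mem_normalizer_fintype fun y hy => (M.Ca _ (mul_mem (mul_mem (inv_mem hT)
        (M.UT hy)) (inv_mem (inv_mem hT)))).1 ?_)
      have := (((uU y hy).mul_right ((ze.2 y (M.UT hy)).zpow_right j)).mul_right (ua y hy)).conj h⁻¹
      rwa [← e2, inv_inv, ← mul_assoc, ← mul_assoc, inv_mul_cancel, one_mul, inv_mul_cancel_right,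
        ← inv_inv h, inv_inv h⁻¹] at this
    have U2 : U ≤ T2 := fun y hy => (m2 y).2 ((sa y (M.UT hy)).imp (uP y hy) fun k => by
      rw [ai]; exact uP _ (mul_mem hy M.aU) k)
    have w2 : w ∈ T2 := (m2 w).2 (.inl wP)
    refine g1 (mul_mem (zpow_mem w2 j) ((M.sig h hT hN).elim (U2 ·) fun k => ?_))
    exact (mul_mem_cancel_left (inv_mem (pow_mem w2 _))).1 (U2 k)
  have cz : ∀ {y}, Cen T y → y ∈ Ux → y ∈ Ux ⊓ centralizer ({w} : Set G) := fun h k =>
    mem_inf.2 ⟨k, mem_centralizer_singleton_iff.2 (h.2 w wT).symm⟩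
  have cm : ∀ {x y}, Cen T x → Cen T y → Cen T (x * y) := fun h k =>
    ⟨mul_mem h.1 k.1, fun s hs => (h.2 s hs).mul_right (k.2 s hs)⟩
  have az : w ^ n * z ∈ Ux ⊓ centralizer ({w} : Set G) := cz (cm M.wn zc)
    (((M.ix _ (M.ZU _ M.wn) _ (M.ZU _ zc)).resolve_left M.ax).resolve_left M.zx)
  have fin : ∀ p ∈ P0 U w, ∃ u ∈ Ux ⊓ centralizer ({w} : Set G), ∃ i : ℕ, p = u * w ^ i := by
    rintro _ ⟨u, hu, h, i, rfl⟩
    obtain ⟨l, hl⟩ := mem_powers_iff_mem_zpowers.2 (zpow_mem_zpowers w i)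
    simp only at hl
    rw [← hl]
    rcases M.ix u hu z (M.ZU z zc) with k | k | k
    · exact ⟨u, mem_inf.2 ⟨k, mem_centralizer_singleton_iff.2 h⟩, l, rfl⟩
    · exact absurd k M.zx
    · refine ⟨u * z * (w ^ n * z), mul_mem (mem_inf.2 ⟨k, mem_centralizer_singleton_iff.2
        (h.mul_left (zc.2 w wT).symm)⟩) az, n + l, ?_⟩
      rw [(zc.2 _ M.wn.1).eq, mul_assoc u, ← mul_assoc z, zz, one_mul, mul_assoc, ← pow_add,
        ← add_assoc, ← two_mul, pow_add, H.ex w wT, one_mul]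
  refine ⟨fun s hs => M.UT (M.xU (mem_inf.1 hs).1), wT, M.UT M.vU,
    fun u hu => mem_centralizer_singleton_iff.1 (mem_inf.1 hu).2,
    fun u hu => M.vc u (M.xU (mem_inf.1 hu).1), M.v2, M.vw, wc, M.oc, M.zc, az,
    fun h => M.zx (mem_inf.1 h).1, ?_, fun s hs => ?_, M.vz⟩
  · rcases M.ix _ (M.ZU _ ze) z (M.ZU z zc) with k | k | k
    exacts [.inl (cz ze k), absurd k M.zx, .inr (cz (cm ze zc) k)]
  · rcases top s hs with h | h
    · obtain ⟨u, hu, i, e⟩ := fin s h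
      exact ⟨u, hu, i, .inl e⟩
    · obtain ⟨u, hu, i, e⟩ := fin _ (mul_mem h (uP (a * v) (mul_mem M.aU M.vU)
        (mul_inv_eq_iff_eq_mul.1 (by
          rw [show a * v * w * (a * v)⁻¹ = a * (v * w * v⁻¹) * a⁻¹ by group, M.vw, ← conj_mul, M.aw, ac,
            mul_inv_cancel_right]))))
      refine ⟨u, hu, i, .inr ?_⟩
      rw [← e, mul_assoc s, inv_mul_cancel_left, mul_assoc, M.v2, mul_one]

end H3.SQ
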