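/- Two primes at distance at least three between `n` and `2 n`. -/
import Cfsg.Agent.Base

set_option autoImplicit false

namespace H3

open Nat

theorem centralBinom_le_of_few_primes (n : ℕ) (n_large : 2 < n) (T : Finset ℕ)
    (hT : ∀ p : ℕ, p.Prime → n < p → p ≤ 2 * n → p ∈ T) :
    centralBinom n ≤ (2 * n) ^ (sqrt (2 * n) + T.card) * 4 ^ (2 * n / 3) := by
  classical
  have n_pos : 0 < n := (Nat.zero_le _).trans_lt n_large
  have n2_pos : 1 ≤ 2 * n := mul_pos (zero_lt_two' ℕ) n_pos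
  let f (x : ℕ) := x ^ n.centralBinom.factorization x
  let A := Finset.Icc 1 (sqrt (2 * n)) ∪ T
  let B := {p ∈ Finset.range (2 * n / 3 + 1) | Nat.Prime p ∧ sqrt (2 * n) < p}
  have hf1 : ∀ x, 1 ≤ f x := fun x => by
    rcases Nat.eq_zero_or_pos x with rfl | hx
    · simp [f]
    · exact Nat.one_le_pow _ _ hx
  have h1 : centralBinom n ≤ ∏ x ∈ A ∪ B, f x := by
    have h0 : centralBinom n = ∏ x ∈ {x ∈ Finset.range (2 * n + 1) | f x ≠ 1}, f x := by
      rw [Finset.prod_filter_ne_one]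
      exact n.prod_pow_factorization_centralBinom.symm
    rw [h0]
    refine Finset.prod_le_prod_of_subset_of_one_le' (fun x hx => ?_) (fun x _ _ => hf1 x)
    obtain ⟨hx1, hx2⟩ := Finset.mem_filter.1 hx
    rw [Finset.mem_range] at hx1
    have hp : x.Prime := by
      by_contra h
      exact hx2 (by simp only [f]; rw [factorization_eq_zero_of_not_prime _ h, Nat.pow_zero])
    simp only [A, B, Finset.mem_union, Finset.mem_Icc, Finset.mem_filter, Finset.mem_range]
    by_cases h3 : x ≤ sqrt (2 * n)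
    · exact Or.inl (Or.inl ⟨hp.one_lt.le, h3⟩)
    by_cases h4 : n < x
    · exact Or.inl (Or.inr (hT x hp h4 (by omega)))
    refine Or.inr ⟨?_, hp, by omega⟩
    by_contra h5
    refine hx2 ?_
    simp only [f]
    rw [factorization_centralBinom_of_two_mul_self_lt_three_mul n_large (by omega) (by omega),
      Nat.pow_zero]
  have h2 : ∏ x ∈ A ∪ B, f x ≤ (∏ x ∈ A, f x) * ∏ x ∈ B, f x := by
    rw [← Finset.prod_union_inter]
    exact Nat.le_mul_of_pos_right _ (Finset.prod_pos fun x _ => hf1 x)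
  refine h1.trans (h2.trans (mul_le_mul' ?_ ?_))
  · refine (Finset.prod_le_prod' fun p _ => (?_ : f p ≤ 2 * n)).trans ?_
    · exact pow_factorization_choose_le (mul_pos two_pos n_pos)
    rw [Finset.prod_const]
    refine pow_right_mono₀ n2_pos ((Finset.card_union_le _ _).trans ?_)
    rw [card_Icc, Nat.add_sub_cancel]
  · refine le_trans ?_ (primorial_le_four_pow (2 * n / 3))
    refine (Finset.prod_le_prod' fun p hp => (?_ : f p ≤ p)).trans ?_
    · obtain ⟨h1, h2, h3⟩ := Finset.mem_filter.1 hp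
      refine (pow_right_mono₀ h2.one_lt.le ?_).trans (pow_one p).le
      exact Nat.factorization_choose_le_one (sqrt_lt'.mp h3)
    refine Finset.prod_le_prod_of_subset_of_one_le' ?_ ?_
    · intro p hp
      obtain ⟨h1, h2, h3⟩ := Finset.mem_filter.1 hp
      exact Finset.mem_filter.2 ⟨h1, h2⟩
    · exact fun p hp _ => (Finset.mem_filter.1 hp).2.one_lt.le

theorem succ_pow_eight_le {s : ℕ} (hs : 44 ≤ s) : (s + 1) ^ 8 ≤ 2 ^ s := by
  induction s, hs using Nat.le_induction with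
  | base => norm_num
  | succ k hk ih =>
    have h1 : (k + 1 + 1) ^ 8 ≤ 2 * (k + 1) ^ 8 := by
      have h2 : 12 * (k + 1 + 1) ≤ 13 * (k + 1) := by omega
      have h3 := Nat.pow_le_pow_left h2 8
      rw [mul_pow, mul_pow] at h3
      have h4 : (13 : ℕ) ^ 8 ≤ 12 ^ 8 * 2 := by norm_num
      have h5 : 12 ^ 8 * (k + 1 + 1) ^ 8 ≤ 12 ^ 8 * (2 * (k + 1) ^ 8) := by
        rw [← mul_assoc]
        exact h3.trans (Nat.mul_le_mul_right _ h4)
      exact Nat.le_of_mul_le_mul_left h5 (by norm_num)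
    rw [pow_succ 2]
    omega

theorem main_ineq {n : ℕ} (hn : 968 ≤ n) :
    n * ((2 * n) ^ (sqrt (2 * n) + 3) * 4 ^ (2 * n / 3)) ≤ 4 ^ n := by
  set s := sqrt (2 * n) with hs
  have h1 : s * s ≤ 2 * n := Nat.sqrt_le _
  have h2 : 2 * n < (s + 1) * (s + 1) := Nat.lt_succ_sqrt _
  have h3 : 44 ≤ s := by
    rw [hs, Nat.le_sqrt]; omega
  have h4 : n * (2 * n) ^ (s + 3) ≤ 4 ^ (n - 2 * n / 3) := by
    have h5 : n * (2 * n) ^ (s + 3) ≤ ((s + 1) ^ 2) ^ (s + 4) := by
      rw [pow_succ _ (s + 3), mul_comm n, sq]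
      exact Nat.mul_le_mul (Nat.pow_le_pow_left h2.le _) (by omega)
    refine h5.trans ?_
    rw [← Nat.pow_le_pow_iff_left (n := 4) (by norm_num)]
    calc (((s + 1) ^ 2) ^ (s + 4)) ^ 4 = ((s + 1) ^ 8) ^ (s + 4) := by
          rw [← pow_mul, ← pow_mul, ← pow_mul]; congr 1; ring
      _ ≤ (2 ^ s) ^ (s + 4) := Nat.pow_le_pow_left (succ_pow_eight_le h3) _
      _ = 2 ^ (s * (s + 4)) := by rw [← pow_mul]
      _ ≤ 2 ^ (2 * ((n - 2 * n / 3) * 4)) := by
          refine Nat.pow_le_pow_right (by norm_num) ?_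
          have h6 : 12 * s ≤ s * s := Nat.mul_le_mul_right _ (by omega)
          have h7 : s * (s + 4) = s * s + 4 * s := by ring
          omega
      _ = (4 ^ (n - 2 * n / 3)) ^ 4 := by rw [pow_mul 2 2, ← pow_mul 4]; norm_num
  calc n * ((2 * n) ^ (s + 3) * 4 ^ (2 * n / 3))
      = n * (2 * n) ^ (s + 3) * 4 ^ (2 * n / 3) := by ring
    _ ≤ 4 ^ (n - 2 * n / 3) * 4 ^ (2 * n / 3) := Nat.mul_le_mul_right _ h4
    _ = 4 ^ n := by rw [← pow_add]; congr 1; omega

theorem two_primes_large {n : ℕ} (hn : 968 ≤ n) :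
    ∃ p q : ℕ, p.Prime ∧ q.Prime ∧ n < p ∧ p + 3 ≤ q ∧ q ≤ 2 * n := by
  classical
  by_contra hno
  obtain ⟨p0, hp0, h1, h2⟩ := Nat.exists_prime_lt_and_le_two_mul n (by omega)
  have hex : ∃ p : ℕ, p.Prime ∧ n < p := ⟨p0, hp0, h1⟩
  have h3 := Nat.find_spec hex
  have h4 := centralBinom_le_of_few_primes n (by omega) (Finset.Icc (Nat.find hex) (Nat.find hex + 2))
    (fun p hp h5 h6 => by
      have h7 : Nat.find hex ≤ p := Nat.find_min' hex ⟨hp, h5⟩
      rw [Finset.mem_Icc]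
      refine ⟨h7, ?_⟩
      by_contra h8
      exact hno ⟨_, p, h3.1, hp, h3.2, by omega, h6⟩)
  rw [card_Icc, show Nat.find hex + 2 + 1 - Nat.find hex = 3 by omega] at h4
  have h5 := Nat.four_pow_lt_mul_centralBinom n (by omega)
  have h6 := main_ineq hn
  have h7 := Nat.mul_le_mul_left n h4
  omega

/-- For `m ≥ 17` there are primes `m / 2 < p`, `p + 3 ≤ q ≤ m`. -/
theorem two_primes {m : ℕ} (hm : 17 ≤ m) :
    ∃ p q : ℕ, p.Prime ∧ q.Prime ∧ m < 2 * p ∧ p + 3 ≤ q ∧ q ≤ m := by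
  by_cases h : m ≤ 25
  · exact ⟨13, 17, by norm_num, by norm_num, by omega, by omega, by omega⟩
  by_cases h : m ≤ 37
  · exact ⟨19, 23, by norm_num, by norm_num, by omega, by omega, by omega⟩
  by_cases h : m ≤ 61
  · exact ⟨31, 37, by norm_num, by norm_num, by omega, by omega, by omega⟩
  by_cases h : m ≤ 105
  · exact ⟨53, 59, by norm_num, by norm_num, by omega, by omega, by omega⟩
  by_cases h : m ≤ 193
  · exact ⟨97, 103, by norm_num, by norm_num, by omega, by omega, by omega⟩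
  by_cases h : m ≤ 361
  · exact ⟨181, 191, by norm_num, by norm_num, by omega, by omega, by omega⟩
  by_cases h : m ≤ 697
  · exact ⟨349, 353, by norm_num, by norm_num, by omega, by omega, by omega⟩
  by_cases h : m ≤ 1365
  · exact ⟨683, 691, by norm_num, by norm_num, by omega, by omega, by omega⟩
  by_cases h : m ≤ 2653
  · exact ⟨1327, 1361, by norm_num, by norm_num, by omega, by omega, by omega⟩
  obtain ⟨p, q, hp, hq, h1, h2, h3⟩ := two_primes_large (n := m / 2) (by omega)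
  exact ⟨p, q, hp, hq, by omega, h2, by omega⟩

end H3
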