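import Cfsg.Agent.H53.SimXASpec

/-! # S3694, chapter XA: the slot B1. -/

set_option autoImplicit false

namespace H3.XAB1

open Subgroup Cfsg H98 Matrix H0.Sim H53.XA

theorem jobB1 : H53.XA.JB1 := by
  intro red bk rk n F _ _ u q E fq hE h1
  classical
  obtain ⟨hmul, -, -, -⟩ := red n F u q E fq hE
  obtain ⟨horth, -, -, T, hT, hs⟩ := bk n F u q E fq hE
  obtain ⟨-, rk2, -, -, rk5⟩ := rk n F
  have hB : ∀ f ∈ T, f ∈ Bl u q E := fun f hf => hT ▸ Finset.mem_coe.2 hf
  have hcard : T.card = n := by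
    have h := rk2 T (fun f hf => (hB f hf).2.1.sq) (fun f hf f' hf' => horth f (hB f hf) f' (hB f' hf'))
    rw [hs, Matrix.rank_one, Finset.sum_congr rfl (fun f hf => h1 f (hB f hf))] at h
    simpa using h.symm
  let e : T ≃ Fin n := T.equivFinOfCardEq hcard
  have hsum : ∑ i, ((e.symm i : T) : Mt n F) = 1 := by
    rw [← hs, ← Finset.sum_coe_sort T (fun f => f)]
    exact Equiv.sum_comp e.symm (fun x : T => (x : Mt n F))
  refine ⟨fun i => (e.symm i : T), fun i => (hB _ (e.symm i).2).2.1.sq, fun i j hij => ?_,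
    fun i => (hB _ (e.symm i).2).2.2.1, hsum, fun hu i => (hB _ (e.symm i).2).2.1.fx hu, ?_⟩
  · refine horth _ (hB _ (e.symm i).2) _ (hB _ (e.symm j).2) fun h => hij ?_
    exact e.symm.injective (Subtype.ext h)
  · refine le_antisymm (Submodule.span_le.2 fun m hm => ?_) (Submodule.span_le.2 ?_)
    · have hm' : m ∈ Sp E := Submodule.subset_span hm
      have h : m = ∑ i, m * ((e.symm i : T) : Mt n F) := by
        rw [← Finset.mul_sum, hsum, mul_one]
      rw [h]
      refine Submodule.sum_mem _ fun i _ => ?_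
      have hb := hB _ (e.symm i).2
      obtain ⟨c, hc⟩ := rk5 _ hb.2.1.sq (h1 _ hb) m
      have h2 : m * ((e.symm i : T) : Mt n F) = c • ((e.symm i : T) : Mt n F) := by
        rw [← hc, ← (hmul m hm' _ hb.1).2, mul_assoc, hb.2.1.sq]
      rw [h2]
      exact Submodule.smul_mem _ _ (Submodule.subset_span ⟨i, rfl⟩)
    · rintro _ ⟨i, rfl⟩
      exact (hB _ (e.symm i).2).1

end H3.XAB1
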