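import Cfsg.Agent.H52.SimXSSpec

/-! # S3694, chapter XS: the slot Z4. -/

set_option autoImplicit false

namespace H3.XSZ4

open Subgroup Cfsg H98 Matrix H0.Sim H52.XS

theorem jobZ4 : H52.XS.JobZ4 := by
  intro n F _ _ Z hF hZ
  have hs : ∀ z ∈ Z, ∃ c : F, c ^ 3 = 1 ∧ (z : Mt n F) = c • (1 : Mt n F) := by
    intro z hz
    obtain ⟨c, hc⟩ := hZ z hz
    have hc' : (z : Mt n F) = c • (1 : Mt n F) := by
      rw [hc, Matrix.scalar_apply, Matrix.smul_one_eq_diagonal]
    by_cases h0 : c = 0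
    · refine ⟨1, one_pow 3, ?_⟩
      have h1 : (1 : Mt n F) = 0 := by
        have := z.mul_inv
        rw [hc', h0, zero_smul, zero_mul] at this
        exact this.symm
      rw [hc', h1, smul_zero, smul_zero]
    · have := FiniteField.pow_card_sub_one_eq_one c h0
      rw [hF] at this
      exact ⟨c, this, hc'⟩
  have hw : ∀ z ∈ Z, z ≠ 1 → ∃ w : F, w ^ 2 + w + 1 = 0 ∧ (z : Mt n F) = w • (1 : Mt n F) := by
    intro z hz h1
    obtain ⟨c, h3, hc⟩ := hs z hz
    refine ⟨c, ?_, hc⟩
    have hne : c - 1 ≠ 0 := by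
      intro h
      apply h1
      ext1
      rw [hc, sub_eq_zero.1 h, one_smul, Units.val_one]
    apply mul_left_cancel₀ hne
    linear_combination h3
  refine ⟨fun z hz => ?_, fun z hz => ?_, fun z hz h1 y hy => ?_, hw⟩
  · obtain ⟨c, -, hc⟩ := hs z hz
    refine mem_center_iff.2 fun g => ?_
    ext1
    rw [Units.val_mul, Units.val_mul, hc, mul_smul_comm, smul_mul_assoc, mul_one, one_mul]
  · obtain ⟨c, h3, hc⟩ := hs z hz
    ext1
    rw [Units.val_pow_eq_pow_val, hc, smul_pow, one_pow, h3, one_smul, Units.val_one]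
  · obtain ⟨w, h2, hz'⟩ := hw z hz h1
    obtain ⟨d, h3, hd⟩ := hs y hy
    have h0 : (d - 1) * ((d - w) * (d - w ^ 2)) = 0 := by
      linear_combination h3 + (-d ^ 2 + w * d - (w - 1)) * h2
    rcases mul_eq_zero.1 h0 with h | h
    · have : y = 1 := by
        ext1
        rw [hd, sub_eq_zero.1 h, one_smul, Units.val_one]
      rw [this]; exact one_mem _
    rcases mul_eq_zero.1 h with h | h
    · have : y = z := by
        ext1
        rw [hd, hz', sub_eq_zero.1 h]
      rw [this]; exact mem_zpowers z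
    · have : y = z ^ 2 := by
        ext1
        rw [Units.val_pow_eq_pow_val, hd, hz', sub_eq_zero.1 h, smul_pow, one_pow]
      rw [this]; exact pow_mem (mem_zpowers z) 2

end H3.XSZ4
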